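import Mathlib
import Cfsg.Agent.Lib.G2Oct.Stab
import Cfsg.Agent.Lib.OreP4.Conic

/-!
# The group `G₂(F)` in Zorn's model: an interface, the `SL₃` block and the Levi subgroup `GL₂`
-/

set_option autoImplicit false
set_option linter.unusedSectionVars false
set_option linter.unusedSimpArgs false
set_option linter.unusedVariables false

namespace Cfsg.Agent.Lib.OreG2

open Cfsg.Lie Matrix Cfsg.Agent.Lib.G2Oct.Zorn Cfsg.Agent.Lib.G2Oct.Stab

variable {F : Type*} [Field F]

/-- The group as a type. -/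
abbrev GG (F : Type*) [Field F] : Type _ := ↥(G2 F)

/-- The action on the algebra. -/
def ac (g : GG F) (x : O F) : O F := act (g : GL (Fin 8) F) x

theorem ac_mul (g h : GG F) (x : O F) : ac (g * h) x = ac g (ac h x) := act_mul _ _ _
theorem ac_one (x : O F) : ac (1 : GG F) x = x := act_one _
theorem ac_inv_ac (g : GG F) (x : O F) : ac g⁻¹ (ac g x) = x := act_inv_act _ _
theorem ac_ac_inv (g : GG F) (x : O F) : ac g (ac g⁻¹ x) = x := act_act_inv _ _
theorem ac_add (g : GG F) (x y : O F) : ac g (x + y) = ac g x + ac g y := act_add _ _ _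
theorem ac_sub (g : GG F) (x y : O F) : ac g (x - y) = ac g x - ac g y := act_sub _ _ _
theorem ac_smul (g : GG F) (c : F) (x : O F) : ac g (c • x) = c • ac g x := act_smul _ _ _
theorem ac_zero (g : GG F) : ac g (0 : O F) = 0 := act_zero _
theorem ac_neg (g : GG F) (x : O F) : ac g (-x) = - ac g x := by
  have := ac_sub g 0 x
  rw [zero_sub, ac_zero, zero_sub] at this
  exact this
theorem ac_hom (g : GG F) (x y : O F) : ac g (zornMul x y) = zornMul (ac g x) (ac g y) := act_hom g.2 x y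
theorem ac_T8 (g : GG F) (x : O F) : T8 (ac g x) = T8 x := T8_act g.2 x
theorem ac_N8 (g : GG F) (x : O F) : N8 (ac g x) = N8 x := N8_act g.2 x
theorem ac_B8 (g : GG F) (x y : O F) : B8 (ac g x) (ac g y) = B8 x y := B8_act g.2 x y
theorem ac_inj (g : GG F) {x y : O F} (h : ac g x = ac g y) : x = y := act_inj _ h

theorem gg_ext {g h : GG F} (H : ∀ x, ac g x = ac h x) : g = h :=
  Subtype.ext (gl_ext_act H)

theorem ac_inv_eq {g : GG F} {x y : O F} (h : ac g x = y) : ac g⁻¹ y = x := by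
  rw [← h, ac_inv_ac]

/-! ### Basis vectors -/

/-- First vectors. -/
def e1 : O F := ![0, 1, 0, 0, 0, 0, 0, 0]
/-- First vectors. -/
def e2 : O F := ![0, 0, 1, 0, 0, 0, 0, 0]
/-- First vectors. -/
def e3 : O F := ![0, 0, 0, 1, 0, 0, 0, 0]
/-- Second vectors. -/
def f1 : O F := ![0, 0, 0, 0, 1, 0, 0, 0]
/-- Second vectors. -/
def f2 : O F := ![0, 0, 0, 0, 0, 1, 0, 0]
/-- Second vectors. -/
def f3 : O F := ![0, 0, 0, 0, 0, 0, 1, 0]
/-- The second idempotent. -/
def e7 : O F := ![0, 0, 0, 0, 0, 0, 0, 1]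

/-- Coordinates determine a vector. -/
theorem o_ext {x y : O F} (h0 : x 0 = y 0) (h1 : x 1 = y 1) (h2 : x 2 = y 2) (h3 : x 3 = y 3) (h4 : x 4 = y 4)
    (h5 : x 5 = y 5) (h6 : x 6 = y 6) (h7 : x 7 = y 7) : x = y := by
  funext i
  fin_cases i <;> assumption

theorem B8_e1 (x : O F) : B8 e1 x = - x 4 := by simp [B8, e1]
theorem B8_e2 (x : O F) : B8 e2 x = - x 5 := by simp [B8, e2]
theorem B8_e3 (x : O F) : B8 e3 x = - x 6 := by simp [B8, e3]
theorem B8_f1 (x : O F) : B8 f1 x = - x 1 := by simp [B8, f1]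
theorem B8_f2 (x : O F) : B8 f2 x = - x 2 := by simp [B8, f2]
theorem B8_f3 (x : O F) : B8 f3 x = - x 3 := by simp [B8, f3]

theorem B8_comm (x y : O F) : B8 x y = B8 y x := by
  simp only [B8]
  ring

theorem mul_e1_f1 : zornMul (e1 : O F) f1 = e0 := by
  apply o_ext <;> simp [zm, e1, f1, e0]
theorem mul_f1_e1 : zornMul (f1 : O F) e1 = e7 := by
  apply o_ext <;> simp [zm, e1, f1, e7]
theorem mul_e2_e3 : zornMul (e2 : O F) e3 = f1 := by
  apply o_ext <;> simp [zm, e2, e3, f1]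
theorem mul_e1_e2 : zornMul (e1 : O F) e2 = f3 := by
  apply o_ext <;> simp [zm, e1, e2, f3]
theorem mul_e2_f1 : zornMul (e2 : O F) f1 = 0 := by
  apply o_ext <;> simp [zm, e2, f1]
theorem mul_e3_f1 : zornMul (e3 : O F) f1 = 0 := by
  apply o_ext <;> simp [zm, e3, f1]
theorem mul_f1_f2 : zornMul (f1 : O F) f2 = - e3 := by
  apply o_ext <;> simp [zm, f1, f2, e3]
theorem mul_f1_f3 : zornMul (f1 : O F) f3 = e2 := by
  apply o_ext <;> simp [zm, f1, f3, e2]
theorem mul_f2_f3 : zornMul (f2 : O F) f3 = - e1 := by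
  apply o_ext <;> simp [zm, f2, f3, e1]

/-- Decomposition of a vector in the basis. -/
theorem o_decomp (x : O F) : x = x 0 • e0 + x 1 • e1 + x 2 • e2 + x 3 • e3 + x 4 • f1 + x 5 • f2 + x 6 • f3 + x 7 • e7 := by
  apply o_ext <;> simp [e0, e1, e2, e3, f1, f2, f3, e7]

/-! ### The `SL₃` block -/

theorem cofM_mul (A B : Matrix (Fin 3) (Fin 3) F) : cofM (A * B) = cofM A * cofM B := by
  ext i j
  fin_cases i <;> fin_cases j <;>
    simp [cofM, cross3, Matrix.mul_apply, Fin.sum_univ_three, Matrix.col] <;> ring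

theorem cofM_one : cofM (1 : Matrix (Fin 3) (Fin 3) F) = 1 := by
  ext i j
  fin_cases i <;> fin_cases j <;> simp +decide [cofM, cross3, Matrix.col, Matrix.one_apply]

set_option maxHeartbeats 4000000 in
/-- The block map is an algebra morphism. -/
theorem bk_hom (A : Matrix (Fin 3) (Fin 3) F) (hA : A.det = 1) (x y : O F) :
    bk A (cofM A) (zornMul x y) = zornMul (bk A (cofM A) x) (bk A (cofM A) y) := by
  have hA' := hA
  rw [Matrix.det_fin_three] at hA'
  apply o_ext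
  · simp only [zm, bk, sc, uv, wv, cofM, cross3, Matrix.mulVec, dotProduct, Fin.sum_univ_three, Matrix.col]
    simp
    linear_combination (-(x 1 * y 4 + x 2 * y 5 + x 3 * y 6)) * hA'
  · simp only [zm, bk, sc, uv, wv, cofM, cross3, Matrix.mulVec, dotProduct, Fin.sum_univ_three, Matrix.col]
    simp
    linear_combination (A 0 0 * (x 5 * y 6 - x 6 * y 5) + A 0 1 * (x 6 * y 4 - x 4 * y 6) + A 0 2 * (x 4 * y 5 - x 5 * y 4)) * hA'
  · simp only [zm, bk, sc, uv, wv, cofM, cross3, Matrix.mulVec, dotProduct, Fin.sum_univ_three, Matrix.col]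
    simp
    linear_combination (A 1 0 * (x 5 * y 6 - x 6 * y 5) + A 1 1 * (x 6 * y 4 - x 4 * y 6) + A 1 2 * (x 4 * y 5 - x 5 * y 4)) * hA'
  · simp only [zm, bk, sc, uv, wv, cofM, cross3, Matrix.mulVec, dotProduct, Fin.sum_univ_three, Matrix.col]
    simp
    linear_combination (A 2 0 * (x 5 * y 6 - x 6 * y 5) + A 2 1 * (x 6 * y 4 - x 4 * y 6) + A 2 2 * (x 4 * y 5 - x 5 * y 4)) * hA'
  · simp only [zm, bk, sc, uv, wv, cofM, cross3, Matrix.mulVec, dotProduct, Fin.sum_univ_three, Matrix.col]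
    simp
    ring
  · simp only [zm, bk, sc, uv, wv, cofM, cross3, Matrix.mulVec, dotProduct, Fin.sum_univ_three, Matrix.col]
    simp
    ring
  · simp only [zm, bk, sc, uv, wv, cofM, cross3, Matrix.mulVec, dotProduct, Fin.sum_univ_three, Matrix.col]
    simp
    ring
  · simp only [zm, bk, sc, uv, wv, cofM, cross3, Matrix.mulVec, dotProduct, Fin.sum_univ_three, Matrix.col]
    simp
    linear_combination (-(x 4 * y 1 + x 5 * y 2 + x 6 * y 3)) * hA'

/-- The block map as a linear map. -/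
def bkL (A C : Matrix (Fin 3) (Fin 3) F) : O F →ₗ[F] O F where
  toFun := bk A C
  map_add' x y := by
    apply o_ext <;> simp [bk, sc, uv, wv, Matrix.mulVec, dotProduct, Fin.sum_univ_three] <;> ring
  map_smul' c x := by
    apply o_ext <;> simp [bk, sc, uv, wv, Matrix.mulVec, dotProduct, Fin.sum_univ_three] <;> ring

local notation "SL₃" => Matrix.SpecialLinearGroup (Fin 3) F

theorem bkV_h1 (A : SL₃) (x : O F) :
    (bkL (A : Matrix (Fin 3) (Fin 3) F) (cofM (A : Matrix (Fin 3) (Fin 3) F)))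
      ((bkL ((A⁻¹ : SL₃) : Matrix (Fin 3) (Fin 3) F) (cofM ((A⁻¹ : SL₃) : Matrix (Fin 3) (Fin 3) F))) x) = x := by
  change bk _ _ (bk _ _ x) = x
  rw [bk_bk, ← cofM_mul]
  have e : (A : Matrix (Fin 3) (Fin 3) F) * ((A⁻¹ : SL₃) : Matrix (Fin 3) (Fin 3) F) = 1 := by
    rw [← Matrix.SpecialLinearGroup.coe_mul, mul_inv_cancel, Matrix.SpecialLinearGroup.coe_one]
  rw [e, cofM_one, bk_one]

theorem bkV_h2 (A : SL₃) (x : O F) :
    (bkL ((A⁻¹ : SL₃) : Matrix (Fin 3) (Fin 3) F) (cofM ((A⁻¹ : SL₃) : Matrix (Fin 3) (Fin 3) F)))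
      ((bkL (A : Matrix (Fin 3) (Fin 3) F) (cofM (A : Matrix (Fin 3) (Fin 3) F))) x) = x := by
  change bk _ _ (bk _ _ x) = x
  rw [bk_bk, ← cofM_mul]
  have e : ((A⁻¹ : SL₃) : Matrix (Fin 3) (Fin 3) F) * (A : Matrix (Fin 3) (Fin 3) F) = 1 := by
    rw [← Matrix.SpecialLinearGroup.coe_mul, inv_mul_cancel, Matrix.SpecialLinearGroup.coe_one]
  rw [e, cofM_one, bk_one]

/-- The block element. -/
noncomputable def bkV (A : SL₃) : GG F :=
  ⟨mkG (bkL (A : Matrix (Fin 3) (Fin 3) F) (cofM (A : Matrix (Fin 3) (Fin 3) F)))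
      (bkL ((A⁻¹ : SL₃) : Matrix (Fin 3) (Fin 3) F) (cofM ((A⁻¹ : SL₃) : Matrix (Fin 3) (Fin 3) F)))
      (bkV_h1 A) (bkV_h2 A),
    mkG_mem _ _ _ _ (fun x y => bk_hom _ A.2 x y)⟩

theorem ac_bkV (A : SL₃) (x : O F) :
    ac (bkV A) x = bk (A : Matrix (Fin 3) (Fin 3) F) (cofM (A : Matrix (Fin 3) (Fin 3) F)) x :=
  mkG_mulVec _ _ (bkV_h1 A) (bkV_h2 A) x

/-- The block homomorphism. -/
noncomputable def bkE : SL₃ →* GG F where
  toFun := bkV
  map_one' := by
    apply gg_ext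
    intro x
    rw [ac_bkV, ac_one, Matrix.SpecialLinearGroup.coe_one, cofM_one, bk_one]
  map_mul' A B := by
    apply gg_ext
    intro x
    rw [ac_mul, ac_bkV, ac_bkV, ac_bkV, bk_bk, Matrix.SpecialLinearGroup.coe_mul, cofM_mul]

theorem ac_bkE (A : SL₃) (x : O F) :
    ac (bkE A) x = bk (A : Matrix (Fin 3) (Fin 3) F) (cofM (A : Matrix (Fin 3) (Fin 3) F)) x :=
  ac_bkV A x

/-! ### The Levi subgroup -/

/-- `2 × 2` matrices. -/
abbrev M2 (F : Type*) := Matrix (Fin 2) (Fin 2) F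

/-- The block matrix. -/
noncomputable def lvV (S : GL (Fin 2) F) : Matrix (Fin 3) (Fin 3) F :=
  !![((S : M2 F).det)⁻¹, 0, 0;
     0, (S : M2 F) 0 0, (S : M2 F) 0 1;
     0, (S : M2 F) 1 0, (S : M2 F) 1 1]

theorem det_ne (S : GL (Fin 2) F) : (S : M2 F).det ≠ 0 :=
  ((Matrix.isUnit_iff_isUnit_det _).1 S.isUnit).ne_zero

theorem lvV_det (S : GL (Fin 2) F) : (lvV S).det = 1 := by
  have h := det_ne S
  rw [Matrix.det_fin_two] at h
  simp only [lvV, Matrix.det_fin_three, Matrix.det_fin_two]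
  simp
  field_simp

/-- The block homomorphism `GL₂ → SL₃`. -/
noncomputable def lv : GL (Fin 2) F →* SL₃ where
  toFun S := ⟨lvV S, lvV_det S⟩
  map_one' := by
    apply Subtype.ext
    show lvV 1 = 1
    ext i j
    fin_cases i <;> fin_cases j <;> simp [lvV]
  map_mul' S T := by
    apply Subtype.ext
    show lvV (S * T) = lvV S * lvV T
    have hS := det_ne S
    have hT := det_ne T
    ext i j
    fin_cases i <;> fin_cases j <;>
      simp [lvV, Matrix.mul_apply, Fin.sum_univ_succ, Matrix.det_mul] <;> ring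

/-- The Levi homomorphism. -/
noncomputable def lev : GL (Fin 2) F →* GG F := bkE.comp lv

theorem ac_lev (S : GL (Fin 2) F) (x : O F) :
    ac (lev S) x = ![x 0, ((S : M2 F).det)⁻¹ * x 1, (S : M2 F) 0 0 * x 2 + (S : M2 F) 0 1 * x 3,
      (S : M2 F) 1 0 * x 2 + (S : M2 F) 1 1 * x 3, (S : M2 F).det * x 4,
      ((S : M2 F).det)⁻¹ * ((S : M2 F) 1 1 * x 5 - (S : M2 F) 1 0 * x 6),
      ((S : M2 F).det)⁻¹ * ((S : M2 F) 0 0 * x 6 - (S : M2 F) 0 1 * x 5), x 7] := by
  have h := det_ne S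
  rw [lev, MonoidHom.comp_apply, ac_bkE]
  show bk (lvV S) (cofM (lvV S)) x = _
  have hd : (S : M2 F) 0 0 * (S : M2 F) 1 1 - (S : M2 F) 0 1 * (S : M2 F) 1 0 = (S : M2 F).det := by
    rw [Matrix.det_fin_two]
  apply o_ext
  · simp [bk, sc, uv, wv]
  · simp [bk, sc, uv, wv, lvV, Matrix.mulVec, dotProduct, Fin.sum_univ_three]
  · simp [bk, sc, uv, wv, lvV, Matrix.mulVec, dotProduct, Fin.sum_univ_three]
  · simp [bk, sc, uv, wv, lvV, Matrix.mulVec, dotProduct, Fin.sum_univ_three]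
  · simp [bk, sc, uv, wv, lvV, cofM, cross3, Matrix.col, Matrix.mulVec, dotProduct, Fin.sum_univ_three]
    left
    linear_combination hd
  · simp [bk, sc, uv, wv, lvV, cofM, cross3, Matrix.col, Matrix.mulVec, dotProduct, Fin.sum_univ_three]
    ring
  · simp [bk, sc, uv, wv, lvV, cofM, cross3, Matrix.col, Matrix.mulVec, dotProduct, Fin.sum_univ_three]
    ring
  · simp [bk, sc, uv, wv]

theorem ac_lev_e1 (S : GL (Fin 2) F) : ac (lev S) e1 = ((S : M2 F).det)⁻¹ • e1 := by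
  rw [ac_lev]
  apply o_ext <;> simp [e1]

theorem ac_lev_f1 (S : GL (Fin 2) F) : ac (lev S) f1 = (S : M2 F).det • f1 := by
  rw [ac_lev]
  apply o_ext <;> simp [f1]

theorem ac_lev_e2 (S : GL (Fin 2) F) : ac (lev S) e2 = (S : M2 F) 0 0 • e2 + (S : M2 F) 1 0 • e3 := by
  rw [ac_lev]
  apply o_ext <;> simp [e2, e3]

theorem ac_lev_e3 (S : GL (Fin 2) F) : ac (lev S) e3 = (S : M2 F) 0 1 • e2 + (S : M2 F) 1 1 • e3 := by
  rw [ac_lev]
  apply o_ext <;> simp [e2, e3]

theorem ac_lev_f2 (S : GL (Fin 2) F) : ac (lev S) f2 =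
    (((S : M2 F).det)⁻¹ * (S : M2 F) 1 1) • f2 + (-(((S : M2 F).det)⁻¹ * (S : M2 F) 0 1)) • f3 := by
  rw [ac_lev]
  apply o_ext <;> simp [f2, f3]

theorem ac_lev_f3 (S : GL (Fin 2) F) : ac (lev S) f3 =
    (-(((S : M2 F).det)⁻¹ * (S : M2 F) 1 0)) • f2 + (((S : M2 F).det)⁻¹ * (S : M2 F) 0 0) • f3 := by
  rw [ac_lev]
  apply o_ext <;> simp [f2, f3]

/-- An element normalising both lines is a Levi element. -/
theorem exists_lev {l : GG F} {γ γ' : F} (h1 : ac l e1 = γ • e1) (h2 : ac l f1 = γ' • f1) :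
    ∃ S : GL (Fin 2) F, l = lev S ∧ (S : M2 F).det = γ' := by
  have hB := ac_B8 l e1 f1
  have hgg : γ * γ' = 1 := by
    rw [h1, h2] at hB
    simp [B8, e1, f1] at hB
    exact hB
  have hγ : γ ≠ 0 := left_ne_zero_of_mul_eq_one hgg
  have hγ' : γ' ≠ 0 := right_ne_zero_of_mul_eq_one hgg
  have he0 : act (l : GL (Fin 8) F) (e0 : O F) = e0 := by
    show ac l e0 = e0
    rw [← mul_e1_f1, ac_hom, h1, h2, mul_e1_f1]
    apply o_ext <;> simp [zm, e1, f1, e0, hgg]
  obtain ⟨A, hdet, hAC, hact⟩ := stab_e0 l.2 he0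
  have hact' : ∀ x, ac l x = bk A (cofM A) x := hact
  -- first columns
  have hA : ∀ i : Fin 3, A i 0 = ![γ, 0, 0] i := by
    have h3 := hact' e1
    rw [h1] at h3
    intro i
    fin_cases i
    · have := congrFun h3 1
      simpa [bk, sc, uv, wv, e1, Matrix.mulVec, dotProduct, Fin.sum_univ_three] using this.symm
    · have := congrFun h3 2
      simpa [bk, sc, uv, wv, e1, Matrix.mulVec, dotProduct, Fin.sum_univ_three] using this.symm
    · have := congrFun h3 3
      simpa [bk, sc, uv, wv, e1, Matrix.mulVec, dotProduct, Fin.sum_univ_three] using this.symm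
  have hC : ∀ i : Fin 3, (cofM A) i 0 = ![γ', 0, 0] i := by
    have h3 := hact' f1
    rw [h2] at h3
    intro i
    fin_cases i
    · have := congrFun h3 4
      simpa [bk, sc, uv, wv, f1, Matrix.mulVec, dotProduct, Fin.sum_univ_three] using this.symm
    · have := congrFun h3 5
      simpa [bk, sc, uv, wv, f1, Matrix.mulVec, dotProduct, Fin.sum_univ_three] using this.symm
    · have := congrFun h3 6
      simpa [bk, sc, uv, wv, f1, Matrix.mulVec, dotProduct, Fin.sum_univ_three] using this.symm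
  -- first row
  have hrow : ∀ j : Fin 3, A 0 j * γ' = (1 : Matrix (Fin 3) (Fin 3) F) j 0 := by
    intro j
    have := congrFun (congrFun hAC j) 0
    rw [Matrix.mul_apply, Fin.sum_univ_three] at this
    simp only [Matrix.transpose_apply] at this
    rw [hC 0, hC 1, hC 2] at this
    simpa using this
  have hA01 : A 0 1 = 0 := by
    have := hrow 1
    simpa [hγ'] using this
  have hA02 : A 0 2 = 0 := by
    have := hrow 2
    simpa [hγ'] using this
  have hA00 : A 0 0 = γ := by simpa using hA 0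
  have hA10 : A 1 0 = 0 := by simpa using hA 1
  have hA20 : A 2 0 = 0 := by simpa using hA 2
  have hdS : (!![A 1 1, A 1 2; A 2 1, A 2 2] : M2 F).det = γ' := by
    rw [Matrix.det_fin_three, hA00, hA01, hA02, hA10, hA20] at hdet
    simp only [Matrix.det_fin_two, Matrix.of_apply, Matrix.cons_val', Matrix.cons_val_zero, Matrix.cons_val_one,
      Matrix.cons_val_fin_one]
    have : γ * (A 1 1 * A 2 2 - A 1 2 * A 2 1) = 1 := by linear_combination hdet
    have h4 : (A 1 1 * A 2 2 - A 1 2 * A 2 1 - γ') * γ = 0 := by linear_combination this - hgg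
    have := (mul_eq_zero.1 h4).resolve_right hγ
    linear_combination this
  let S : GL (Fin 2) F := Matrix.GeneralLinearGroup.mkOfDetNeZero !![A 1 1, A 1 2; A 2 1, A 2 2] (by rw [hdS]; exact hγ')
  have hS : (S : M2 F) = !![A 1 1, A 1 2; A 2 1, A 2 2] := rfl
  have hSd : (S : M2 F).det = γ' := by rw [hS, hdS]
  refine ⟨S, ?_, hSd⟩
  apply gg_ext
  intro x
  rw [hact', lev, MonoidHom.comp_apply, ac_bkE]
  show bk A (cofM A) x = bk (lvV S) (cofM (lvV S)) x
  have : A = lvV S := by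
    have hinv : γ = ((S : M2 F).det)⁻¹ := by
      rw [hSd]
      exact eq_inv_of_mul_eq_one_left hgg
    ext i j
    fin_cases i <;> fin_cases j
    · simp [lvV, hA00, hinv]
    · simp [lvV, hA01]
    · simp [lvV, hA02]
    · simp [lvV, hA10]
    · simp [lvV, hS]
    · simp [lvV, hS]
    · simp [lvV, hA20]
    · simp [lvV, hS]
    · simp [lvV, hS]
  rw [this]

end Cfsg.Agent.Lib.OreG2
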