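import Mathlib
import Cfsg.Agent.Lib.OreG2.Basic

/-!
# Parabolic subgroups of `G₂(F)`: the unipotent radicals and the Gauss decomposition
-/

set_option autoImplicit false
set_option linter.unusedSectionVars false
set_option linter.unusedSimpArgs false
set_option linter.unusedVariables false
set_option linter.unnecessarySeqFocus false

namespace Cfsg.Agent.Lib.OreG2

open Cfsg.Lie Matrix Cfsg.Agent.Lib.G2Oct.Zorn Cfsg.Agent.Lib.G2Oct.Stab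

variable {F : Type*} [Field F]

/-! ### Root elements -/

/-- A long root element. -/
noncomputable def trE (i j : Fin 3) (hij : i ≠ j) (t : F) : GG F := ⟨trG i j hij t, trG_mem _ _ _ _⟩
/-- A short root element. -/
noncomputable def psiE (w : Fin 3 → F) : GG F := ⟨psiG w, psiG_mem w⟩
/-- A short root element. -/
noncomputable def phiE (w : Fin 3 → F) : GG F := ⟨phiG w, phiG_mem w⟩
/-- The swap. -/
noncomputable def swE : GG F := ⟨swG, swG_mem⟩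

theorem ac_trE (i j : Fin 3) (hij : i ≠ j) (t : F) (x : O F) : ac (trE i j hij t) x = trF i j t x := trG_act i j hij t x
theorem ac_psiE (w : Fin 3 → F) (x : O F) : ac (psiE w) x = psiF w x := psiG_act _ _
theorem ac_phiE (w : Fin 3 → F) (x : O F) : ac (phiE w) x = phiF w x := phiG_act _ _
theorem ac_swE (x : O F) : ac swE x = swF x := swG_act _

/-! ### The unipotent radicals -/

/-- The subgroup fixing `p` and acting trivially on `⟨p, r, s⟩ / ⟨p⟩`. -/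
def Qg (p r s : O F) : Subgroup (GG F) where
  carrier := {g | ac g p = p ∧ (∃ κ : F, ac g r = r + κ • p) ∧ (∃ κ : F, ac g s = s + κ • p)}
  mul_mem' := by
    rintro g h ⟨h1, ⟨κ₁, h2⟩, ⟨κ₂, h3⟩⟩ ⟨h4, ⟨κ₃, h5⟩, ⟨κ₄, h6⟩⟩
    refine ⟨by rw [ac_mul, h4, h1], ⟨κ₁ + κ₃, ?_⟩, ⟨κ₂ + κ₄, ?_⟩⟩
    · rw [ac_mul, h5, ac_add, ac_smul, h1, h2, add_smul, add_assoc]
    · rw [ac_mul, h6, ac_add, ac_smul, h1, h3, add_smul, add_assoc]
  one_mem' := ⟨ac_one _, ⟨0, by rw [ac_one, zero_smul, add_zero]⟩, ⟨0, by rw [ac_one, zero_smul, add_zero]⟩⟩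
  inv_mem' := by
    rintro g ⟨h1, ⟨κ₁, h2⟩, ⟨κ₂, h3⟩⟩
    have h4 : ac g⁻¹ p = p := ac_inv_eq h1
    refine ⟨h4, ⟨-κ₁, ?_⟩, ⟨-κ₂, ?_⟩⟩
    · apply ac_inj g
      rw [ac_ac_inv, ac_add, ac_smul, h1, h2, neg_smul]
      abel
    · apply ac_inj g
      rw [ac_ac_inv, ac_add, ac_smul, h1, h3, neg_smul]
      abel

/-- The unipotent radical of the stabiliser of the line through `e1`. -/
abbrev QU (F : Type*) [Field F] : Subgroup (GG F) := Qg e1 f2 f3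
/-- The unipotent radical of the stabiliser of the line through `f1`. -/
abbrev QL (F : Type*) [Field F] : Subgroup (GG F) := Qg f1 e2 e3

/-- Conjugation preserving the flag preserves the subgroup. -/
theorem conj_mem_Qg {p r s : O F} {g : GG F} (hg : g ∈ Qg p r s) (x : GG F) {c a b a' b' : F}
    (hxp : ac x p = c • p) (hr : ac x⁻¹ r = a • r + b • s) (hs : ac x⁻¹ s = a' • r + b' • s)
    (hp : ac g (ac x⁻¹ p) = ac x⁻¹ p) : x * g * x⁻¹ ∈ Qg p r s := by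
  obtain ⟨h1, ⟨κ₁, h2⟩, ⟨κ₂, h3⟩⟩ := hg
  refine ⟨?_, ⟨(a * κ₁ + b * κ₂) * c, ?_⟩, ⟨(a' * κ₁ + b' * κ₂) * c, ?_⟩⟩
  · rw [ac_mul, ac_mul, hp, ac_ac_inv]
  · rw [ac_mul, ac_mul, hr, ac_add, ac_smul, ac_smul, h2, h3]
    have e : a • (r + κ₁ • p) + b • (s + κ₂ • p) = (a • r + b • s) + (a * κ₁ + b * κ₂) • p := by
      simp only [smul_add, add_smul, smul_smul]
      abel
    rw [e, ac_add, ← hr, ac_ac_inv, ac_smul, hxp, smul_smul]
  · rw [ac_mul, ac_mul, hs, ac_add, ac_smul, ac_smul, h2, h3]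
    have e : a' • (r + κ₁ • p) + b' • (s + κ₂ • p) = (a' • r + b' • s) + (a' * κ₁ + b' * κ₂) • p := by
      simp only [smul_add, add_smul, smul_smul]
      abel
    rw [e, ac_add, ← hs, ac_ac_inv, ac_smul, hxp, smul_smul]

/-- The Levi subgroup normalises the upper radical. -/
theorem lev_conj_QU (S : GL (Fin 2) F) {g : GG F} (hg : g ∈ QU F) : lev S * g * (lev S)⁻¹ ∈ QU F := by
  have hi : (lev S)⁻¹ = lev S⁻¹ := (map_inv _ _).symm
  have hr := ac_lev_f2 S⁻¹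
  have hs := ac_lev_f3 S⁻¹
  rw [← hi] at hr hs
  refine conj_mem_Qg hg (lev S) (ac_lev_e1 S) hr hs ?_
  rw [hi, ac_lev_e1, ac_smul, hg.1]

/-- The Levi subgroup normalises the lower radical. -/
theorem lev_conj_QL (S : GL (Fin 2) F) {g : GG F} (hg : g ∈ QL F) : lev S * g * (lev S)⁻¹ ∈ QL F := by
  have hi : (lev S)⁻¹ = lev S⁻¹ := (map_inv _ _).symm
  have hr := ac_lev_e2 S⁻¹
  have hs := ac_lev_e3 S⁻¹
  rw [← hi] at hr hs
  refine conj_mem_Qg hg (lev S) (ac_lev_f1 S) hr hs ?_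
  rw [hi, ac_lev_f1, ac_smul, hg.1]

/-! ### Explicit elements -/

/-- The explicit element of the upper radical. -/
noncomputable def uE (z1 z2 t m2 m3 : F) : GG F :=
  trE 0 1 (by decide) m2 * trE 0 2 (by decide) m3 * psiE ![t, 0, 0] * phiE ![0, z1, z2]

/-- The explicit element of the lower radical. -/
noncomputable def vE (s s' t w1 w2 : F) : GG F :=
  trE 1 0 (by decide) s * trE 2 0 (by decide) s' * phiE ![t, 0, 0] * psiE ![0, w1, w2]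

theorem uE_mem (z1 z2 t m2 m3 : F) : uE z1 z2 t m2 m3 ∈ QU F := by
  refine mul_mem (mul_mem (mul_mem ?_ ?_) ?_) ?_
  · refine ⟨?_, ⟨0, ?_⟩, ⟨0, ?_⟩⟩ <;> rw [ac_trE] <;> apply o_ext <;> simp [trF, e1, f2, f3]
  · refine ⟨?_, ⟨0, ?_⟩, ⟨0, ?_⟩⟩ <;> rw [ac_trE] <;> apply o_ext <;> simp [trF, e1, f2, f3]
  · refine ⟨?_, ⟨0, ?_⟩, ⟨0, ?_⟩⟩ <;> rw [ac_psiE] <;> apply o_ext <;> simp [psiF, e1, f2, f3]
  · refine ⟨?_, ⟨z2, ?_⟩, ⟨-z1, ?_⟩⟩ <;> rw [ac_phiE] <;> apply o_ext <;> simp [phiF, e1, f2, f3]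

theorem vE_mem (s s' t w1 w2 : F) : vE s s' t w1 w2 ∈ QL F := by
  refine mul_mem (mul_mem (mul_mem ?_ ?_) ?_) ?_
  · refine ⟨?_, ⟨0, ?_⟩, ⟨0, ?_⟩⟩ <;> rw [ac_trE] <;> apply o_ext <;> simp [trF, f1, e2, e3]
  · refine ⟨?_, ⟨0, ?_⟩, ⟨0, ?_⟩⟩ <;> rw [ac_trE] <;> apply o_ext <;> simp [trF, f1, e2, e3]
  · refine ⟨?_, ⟨0, ?_⟩, ⟨0, ?_⟩⟩ <;> rw [ac_phiE] <;> apply o_ext <;> simp [phiF, f1, e2, e3]
  · refine ⟨?_, ⟨-w2, ?_⟩, ⟨w1, ?_⟩⟩ <;> rw [ac_psiE] <;> apply o_ext <;> simp [psiF, f1, e2, e3]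

theorem ac_uE (z1 z2 t m2 m3 : F) (x : O F) : ac (uE z1 z2 t m2 m3) x =
    trF 0 1 m2 (trF 0 2 m3 (psiF ![t, 0, 0] (phiF ![0, z1, z2] x))) := by
  simp only [uE, ac_mul, ac_trE, ac_psiE, ac_phiE]

theorem ac_vE (s s' t w1 w2 : F) (x : O F) : ac (vE s s' t w1 w2) x =
    trF 1 0 s (trF 2 0 s' (phiF ![t, 0, 0] (psiF ![0, w1, w2] x))) := by
  simp only [vE, ac_mul, ac_trE, ac_psiE, ac_phiE]

theorem uE_f1 (z1 z2 t m2 m3 : F) : ac (uE z1 z2 t m2 m3) f1 =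
    ![-t, -m2 * z2 + m3 * z1 - t ^ 2, -z2, z1, 1, -t * z1 - m2, -t * z2 - m3, t] := by
  rw [ac_uE]
  apply o_ext <;> simp [trF, psiF, phiF, f1] <;> ring

theorem vE_e1 (s s' t w1 w2 : F) : ac (vE s s' t w1 w2) e1 =
    ![t, 1, -t * w1 + s, -t * w2 + s', -s * w2 + s' * w1 - t ^ 2, w2, -w1, -t] := by
  rw [ac_vE]
  apply o_ext <;> simp [trF, psiF, phiF, e1] <;> ring

theorem vE_f2 (s s' t w1 w2 : F) : ac (vE s s' t w1 w2) f2 =
    ![-w1, 0, -w1 ^ 2, -w1 * w2 - t, 2 * t * w1 - s, 1, 0, w1] := by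
  rw [ac_vE]
  apply o_ext <;> simp [trF, psiF, phiF, f2] <;> ring

theorem vE_f3 (s s' t w1 w2 : F) : ac (vE s s' t w1 w2) f3 =
    ![-w2, 0, -w1 * w2 + t, -w2 ^ 2, 2 * t * w2 - s', 0, 1, w2] := by
  rw [ac_vE]
  apply o_ext <;> simp [trF, psiF, phiF, f3] <;> ring

/-- Transitivity of the upper radical. -/
theorem exists_QU {b : O F} (hT : T8 b = 0) (hN : N8 b = 0) (h4 : b 4 = 1) : ∃ u ∈ QU F, ac u f1 = b := by
  have h7 : b 7 = - b 0 := by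
    simp only [T8] at hT
    linear_combination hT
  have h1 : b 1 = - b 0 ^ 2 - b 2 * b 5 - b 3 * b 6 := by
    simp only [N8, h4, h7] at hN
    linear_combination -hN
  refine ⟨uE (b 3) (-b 2) (-b 0) (-b 5 - (-b 0) * b 3) (-b 6 - (-b 0) * (-b 2)), uE_mem _ _ _ _ _, ?_⟩
  rw [uE_f1]
  apply o_ext <;> simp [h4, h7, h1] <;> ring

/-- Transitivity of the lower radical. -/
theorem exists_QL {b : O F} (hT : T8 b = 0) (hN : N8 b = 0) (h1 : b 1 = 1) : ∃ v ∈ QL F, ac v e1 = b := by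
  have h7 : b 7 = - b 0 := by
    simp only [T8] at hT
    linear_combination hT
  have h4 : b 4 = - b 0 ^ 2 - b 2 * b 5 - b 3 * b 6 := by
    simp only [N8, h1, h7] at hN
    linear_combination -hN
  refine ⟨vE (b 2 + b 0 * (-b 6)) (b 3 + b 0 * b 5) (b 0) (-b 6) (b 5), vE_mem _ _ _ _ _, ?_⟩
  rw [vE_e1]
  apply o_ext <;> simp [h1, h7, h4] <;> ring

/-- The smul lemmas for trace and norm. -/
theorem T8_smul' (c : F) (x : O F) : T8 (c • x) = c * T8 x := by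
  simp [T8]
  ring

theorem N8_smul' (c : F) (x : O F) : N8 (c • x) = c ^ 2 * N8 x := by
  simp [N8]
  ring

theorem T8_f1 : T8 (f1 : O F) = 0 := by simp [T8, f1]
theorem N8_f1 : N8 (f1 : O F) = 0 := by simp [N8, f1]
theorem T8_e1 : T8 (e1 : O F) = 0 := by simp [T8, e1]
theorem N8_e1 : N8 (e1 : O F) = 0 := by simp [N8, e1]

theorem B8_smul_left (c : F) (x y : O F) : B8 (c • x) y = c * B8 x y := by
  simp [B8]
  ring

theorem Xc2 (a b c : F) : (a • e2 + b • e3 + c • f1 : O F) 2 = a := by simp [e2, e3, f1]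
theorem Xc3 (a b c : F) : (a • e2 + b • e3 + c • f1 : O F) 3 = b := by simp [e2, e3, f1]
theorem Xc4 (a b c : F) : (a • e2 + b • e3 + c • f1 : O F) 4 = c := by simp [e2, e3, f1]

/-- Coordinates under the upper radical. -/
theorem coord_QU {u : GG F} (hu : u ∈ QU F) : ∃ κ κ' : F, ∀ x : O F,
    (ac u x) 2 = x 2 + κ * x 4 ∧ (ac u x) 3 = x 3 + κ' * x 4 ∧ (ac u x) 4 = x 4 := by
  obtain ⟨h1, ⟨κ, h2⟩, ⟨κ', h3⟩⟩ := (QU F).inv_mem hu
  refine ⟨κ, κ', fun x => ⟨?_, ?_, ?_⟩⟩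
  · have e := ac_B8 u (ac u⁻¹ f2) x
    rw [ac_ac_inv, h2, B8_f2] at e
    simp [B8, f2, e1] at e
    linear_combination -e
  · have e := ac_B8 u (ac u⁻¹ f3) x
    rw [ac_ac_inv, h3, B8_f3] at e
    simp [B8, f3, e1] at e
    linear_combination -e
  · have e := ac_B8 u (ac u⁻¹ e1) x
    rw [ac_ac_inv, h1, B8_e1, B8_e1] at e
    linear_combination -e

/-! ### The Gauss decomposition -/

/-- The Levi part of an element of the big cell. -/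
noncomputable def Nblk (y : GG F) : M2 F :=
  !![(ac y e2) 2 - (ac y f1) 2 * (ac y e2) 4 / (ac y f1) 4, (ac y e3) 2 - (ac y f1) 2 * (ac y e3) 4 / (ac y f1) 4;
     (ac y e2) 3 - (ac y f1) 3 * (ac y e2) 4 / (ac y f1) 4, (ac y e3) 3 - (ac y f1) 3 * (ac y e3) 4 / (ac y f1) 4]

/-- The Gauss decomposition. -/
theorem gauss (y : GG F) (hκ : (ac y f1) 4 ≠ 0) :
    ∃ u ∈ QU F, ∃ v ∈ QL F, ∃ S : GL (Fin 2) F, y = u * lev S * v ∧ (S : M2 F).det = (ac y f1) 4 ∧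
      (S : M2 F) = Nblk y := by
  set κ := (ac y f1) 4 with hκdef
  -- the upper part
  obtain ⟨u, hu, hub⟩ := exists_QU (b := κ⁻¹ • ac y f1) (by rw [T8_smul', ac_T8, T8_f1, mul_zero])
    (by rw [N8_smul', ac_N8, N8_f1, mul_zero]) (by simp [← hκdef, hκ])
  set w := u⁻¹ * y with hw
  have hwf : ac w f1 = κ • f1 := by
    rw [hw, ac_mul]
    apply ac_inj u
    rw [ac_ac_inv, ac_smul, hub, smul_smul, mul_inv_cancel₀ hκ, one_smul]
  have hwif : ac w⁻¹ f1 = κ⁻¹ • f1 := by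
    apply ac_inj w
    rw [ac_ac_inv, ac_smul, hwf, smul_smul, inv_mul_cancel₀ hκ, one_smul]
  -- the lower part
  have hc1 : (ac w⁻¹ e1) 1 = κ := by
    have e := ac_B8 w⁻¹ f1 e1
    rw [hwif, B8_smul_left, B8_f1, B8_f1] at e
    have e' : (e1 : O F) 1 = 1 := by simp [e1]
    rw [e'] at e
    field_simp at e
    linear_combination -e
  obtain ⟨v₂, hv₂, hvb⟩ := exists_QL (b := κ⁻¹ • ac w⁻¹ e1) (by rw [T8_smul', ac_T8, T8_e1, mul_zero])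
    (by rw [N8_smul', ac_N8, N8_e1, mul_zero]) (by simp [hc1, hκ])
  set l := w * v₂ with hl
  have hle : ac l e1 = κ⁻¹ • e1 := by
    rw [hl, ac_mul, hvb, ac_smul, ac_ac_inv]
  have hlf : ac l f1 = κ • f1 := by
    rw [hl, ac_mul, hv₂.1, hwf]
  obtain ⟨S, hS, hSd⟩ := exists_lev hle hlf
  have hy : y = u * lev S * v₂⁻¹ := by
    rw [← hS, hl, hw]
    group
  refine ⟨u, hu, v₂⁻¹, (QL F).inv_mem hv₂, S, hy, hSd, ?_⟩
  -- identify the block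
  obtain ⟨κ₁, κ₂, hc⟩ := coord_QU hu
  obtain ⟨h1, ⟨ξ₁, h2⟩, ⟨ξ₂, h3⟩⟩ := (QL F).inv_mem hv₂
  have hye : ∀ (z : O F) (ξ : F), ac v₂⁻¹ z = z + ξ • f1 → ac y z = ac u (ac (lev S) z + (ξ * κ) • f1) := by
    intro z ξ hz
    rw [hy, ac_mul, ac_mul, hz, ac_add, ac_smul, ac_lev_f1, hSd, smul_smul]
  have hyf : ac y f1 = ac u (κ • f1) := by
    rw [hy, ac_mul, ac_mul, h1, ac_lev_f1, hSd]
  have e2' := hye e2 ξ₁ h2
  have e3' := hye e3 ξ₂ h3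
  rw [ac_lev_e2] at e2'
  rw [ac_lev_e3] at e3'
  have a1 := hc ((S : M2 F) 0 0 • e2 + (S : M2 F) 1 0 • e3 + (ξ₁ * κ) • f1)
  have a2 := hc ((S : M2 F) 0 1 • e2 + (S : M2 F) 1 1 • e3 + (ξ₂ * κ) • f1)
  have a3 := hc (κ • f1)
  rw [← e2', Xc2, Xc3, Xc4] at a1
  rw [← e3', Xc2, Xc3, Xc4] at a2
  rw [← hyf] at a3
  have f12 : (κ • f1 : O F) 2 = 0 := by simp [f1]
  have f13 : (κ • f1 : O F) 3 = 0 := by simp [f1]
  have f14 : (κ • f1 : O F) 4 = κ := by simp [f1]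
  rw [f12, f13, f14] at a3
  obtain ⟨a11, a12, a13⟩ := a1
  obtain ⟨a21, a22, a23⟩ := a2
  obtain ⟨a31, a32, a33⟩ := a3
  ext i j
  fin_cases i <;> fin_cases j
  · show (S : M2 F) 0 0 = (ac y e2) 2 - (ac y f1) 2 * (ac y e2) 4 / (ac y f1) 4
    rw [← hκdef, a11, a13, a31]
    field_simp
    ring
  · show (S : M2 F) 0 1 = (ac y e3) 2 - (ac y f1) 2 * (ac y e3) 4 / (ac y f1) 4
    rw [← hκdef, a21, a23, a31]
    field_simp
    ring
  · show (S : M2 F) 1 0 = (ac y e2) 3 - (ac y f1) 3 * (ac y e2) 4 / (ac y f1) 4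
    rw [← hκdef, a12, a13, a32]
    field_simp
    ring
  · show (S : M2 F) 1 1 = (ac y e3) 3 - (ac y f1) 3 * (ac y e3) 4 / (ac y f1) 4
    rw [← hκdef, a22, a23, a32]
    field_simp
    ring

end Cfsg.Agent.Lib.OreG2
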