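import Mathlib
import Cfsg.Agent.Lib.OreG2.Para

/-!
# Fixed-point-freeness of Levi elements and the factorisation in the big cell
-/

set_option autoImplicit false
set_option linter.unusedSectionVars false
set_option linter.unusedSimpArgs false
set_option linter.unusedVariables false
set_option linter.unnecessarySeqFocus false

namespace Cfsg.Agent.Lib.OreG2

open Cfsg.Lie Matrix Cfsg.Agent.Lib.G2Oct.Zorn Cfsg.Agent.Lib.G2Oct.Stab Cfsg.Agent.Lib.Linalg.GL2Conj

variable {F : Type*} [Field F]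

/-- An eigenvector forces a root of the characteristic polynomial. -/
theorem eigen_zero {a b c d τ δ : F} (hτ : τ = a + d) (hδ : δ = a * d - b * c)
    (hnr : ∀ r : F, r * r - τ * r + δ ≠ 0) {x y r : F} (h1 : a * x + b * y = r * x) (h2 : c * x + d * y = r * y) :
    x = 0 ∧ y = 0 := by
  have hx : (r * r - τ * r + δ) * x = 0 := by
    rw [hτ, hδ]
    linear_combination (d - r) * h1 - b * h2
  have hy : (r * r - τ * r + δ) * y = 0 := by
    rw [hτ, hδ]
    linear_combination (-c) * h1 + (a - r) * h2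
  exact ⟨(mul_eq_zero.1 hx).resolve_left (hnr r), (mul_eq_zero.1 hy).resolve_left (hnr r)⟩

/-- The upper radical acts freely on the opposite points. -/
theorem QU_free {u : GG F} (hu : u ∈ QU F) (h : ac u f1 = f1) : u = 1 := by
  obtain ⟨h1, ⟨κ, h2⟩, ⟨κ', h3⟩⟩ := hu
  obtain ⟨S, hS, hd⟩ := exists_lev (l := u) (γ := (1 : F)) (γ' := (1 : F)) (by rw [h1, one_smul]) (by rw [h, one_smul])
  rw [hS, ac_lev_f2, hd] at h2
  rw [hS, ac_lev_f3, hd] at h3
  have a1 := congrFun h2 5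
  have a2 := congrFun h2 6
  have a3 := congrFun h3 5
  have a4 := congrFun h3 6
  simp [f2, f3, e1] at a1 a2 a3 a4
  have : S = 1 := by
    apply Units.ext
    ext i j
    fin_cases i <;> fin_cases j
    · simpa using a4
    · simpa using a2
    · simpa using a3
    · simpa using a1
  rw [hS, this, map_one]

/-- The lower radical acts freely on the opposite points. -/
theorem QL_free {v : GG F} (hv : v ∈ QL F) (h : ac v e1 = e1) : v = 1 := by
  obtain ⟨h1, ⟨κ, h2⟩, ⟨κ', h3⟩⟩ := hv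
  obtain ⟨S, hS, hd⟩ := exists_lev (l := v) (γ := (1 : F)) (γ' := (1 : F)) (by rw [h, one_smul]) (by rw [h1, one_smul])
  rw [hS, ac_lev_e2] at h2
  rw [hS, ac_lev_e3] at h3
  have a1 := congrFun h2 2
  have a2 := congrFun h2 3
  have a3 := congrFun h3 2
  have a4 := congrFun h3 3
  simp [f1, e2, e3] at a1 a2 a3 a4
  have : S = 1 := by
    apply Units.ext
    ext i j
    fin_cases i <;> fin_cases j
    · simpa using a1
    · simpa using a3
    · simpa using a2
    · simpa using a4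
  rw [hS, this, map_one]

/-- A Levi element without eigenvalues has no fixed points on the upper radical. -/
theorem QU_fpf (S : GL (Fin 2) F) (hnr : ∀ r : F, r * r - (S : M2 F).trace * r + (S : M2 F).det ≠ 0)
    (hd1 : (S : M2 F).det ≠ 1) {u : GG F} (hu : u ∈ QU F) (hc : lev S * u = u * lev S) : u = 1 := by
  apply QU_free hu
  obtain ⟨κ₁, κ₂, hco⟩ := coord_QU hu
  set b := ac u f1 with hb
  have hd0 := det_ne S
  set κ := (S : M2 F).det with hκ
  have hκ2 : κ = (S : M2 F) 0 0 * (S : M2 F) 1 1 - (S : M2 F) 0 1 * (S : M2 F) 1 0 := Matrix.det_fin_two _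
  have b4 : b 4 = 1 := by
    have := (hco f1).2.2
    rw [← hb] at this
    rw [this]
    simp [f1]
  have hT : T8 b = 0 := by rw [hb, ac_T8, T8_f1]
  have hN : N8 b = 0 := by rw [hb, ac_N8, N8_f1]
  have he : ac (lev S) b = κ • b := by
    rw [hb, ← ac_mul, hc, ac_mul, ac_lev_f1, ac_smul]
  rw [ac_lev] at he
  have c0 := congrFun he 0
  have c2 := congrFun he 2
  have c3 := congrFun he 3
  have c5 := congrFun he 5
  have c6 := congrFun he 6
  have c7 := congrFun he 7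
  simp only [Pi.smul_apply, smul_eq_mul] at c0 c2 c3 c5 c6 c7
  simp at c0 c2 c3 c5 c6 c7
  rw [← hκ] at c5 c6
  rw [inv_mul_eq_iff_eq_mul₀ hd0] at c5 c6
  have hκ1 : (1 - κ) ≠ 0 := fun h => hd1 (by linear_combination -h)
  have b0 : b 0 = 0 := by
    have : (1 - κ) * b 0 = 0 := by linear_combination c0
    exact (mul_eq_zero.1 this).resolve_left hκ1
  have b7 : b 7 = 0 := by
    have : (1 - κ) * b 7 = 0 := by linear_combination c7
    exact (mul_eq_zero.1 this).resolve_left hκ1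
  obtain ⟨b2, b3⟩ := eigen_zero (a := (S : M2 F) 0 0) (b := (S : M2 F) 0 1) (c := (S : M2 F) 1 0) (d := (S : M2 F) 1 1)
    (Matrix.trace_fin_two _) hκ2 hnr (x := b 2) (y := b 3) (r := κ) c2 c3
  obtain ⟨b5, b6⟩ := eigen_zero (a := (S : M2 F) 1 1) (b := -(S : M2 F) 1 0) (c := -(S : M2 F) 0 1) (d := (S : M2 F) 0 0)
    (by rw [Matrix.trace_fin_two]; ring) (by rw [hκ2]; ring) hnr (x := b 5) (y := b 6) (r := κ * κ)
    (by linear_combination c5) (by linear_combination c6)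
  have b1 : b 1 = 0 := by
    simp only [N8, b0, b7, b2, b3, b5, b6, b4] at hN
    simpa using hN
  apply o_ext <;> simp [f1, b0, b1, b2, b3, b4, b5, b6, b7]

/-- A Levi element without eigenvalues has no fixed points on the lower radical. -/
theorem QL_fpf (S : GL (Fin 2) F) (hnr : ∀ r : F, r * r - (S : M2 F).trace * r + (S : M2 F).det ≠ 0)
    (hd1 : (S : M2 F).det ≠ 1) {v : GG F} (hv : v ∈ QL F) (hc : lev S * v = v * lev S) : v = 1 := by
  apply QL_free hv
  set b := ac v e1 with hb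
  have hd0 := det_ne S
  set κ := (S : M2 F).det with hκ
  have hκ2 : κ = (S : M2 F) 0 0 * (S : M2 F) 1 1 - (S : M2 F) 0 1 * (S : M2 F) 1 0 := Matrix.det_fin_two _
  have b1 : b 1 = 1 := by
    have e := ac_B8 v f1 e1
    rw [hv.1, B8_f1, B8_f1, ← hb] at e
    have e' : (e1 : O F) 1 = 1 := by simp [e1]
    rw [e'] at e
    linear_combination -e
  have hT : T8 b = 0 := by rw [hb, ac_T8, T8_e1]
  have hN : N8 b = 0 := by rw [hb, ac_N8, N8_e1]
  have he : ac (lev S) b = κ⁻¹ • b := by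
    rw [hb, ← ac_mul, hc, ac_mul, ac_lev_e1, ac_smul]
  rw [ac_lev] at he
  have c0 := congrFun he 0
  have c2 := congrFun he 2
  have c3 := congrFun he 3
  have c5 := congrFun he 5
  have c6 := congrFun he 6
  have c7 := congrFun he 7
  simp only [Pi.smul_apply, smul_eq_mul] at c0 c2 c3 c5 c6 c7
  simp at c0 c2 c3 c5 c6 c7
  rw [← hκ] at c5 c6
  rw [inv_mul_eq_iff_eq_mul₀ hd0] at c5 c6
  rw [mul_inv_cancel_left₀ hd0] at c5 c6
  have hκ1 : (1 - κ⁻¹) ≠ 0 := by
    intro h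
    apply hd1
    field_simp at h
    linear_combination h
  have b0 : b 0 = 0 := by
    have : (1 - κ⁻¹) * b 0 = 0 := by linear_combination c0
    exact (mul_eq_zero.1 this).resolve_left hκ1
  have b7 : b 7 = 0 := by
    have : (1 - κ⁻¹) * b 7 = 0 := by linear_combination c7
    exact (mul_eq_zero.1 this).resolve_left hκ1
  obtain ⟨b2, b3⟩ := eigen_zero (a := (S : M2 F) 0 0) (b := (S : M2 F) 0 1) (c := (S : M2 F) 1 0) (d := (S : M2 F) 1 1)
    (Matrix.trace_fin_two _) hκ2 hnr (x := b 2) (y := b 3) (r := κ⁻¹) c2 c3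
  obtain ⟨b5, b6⟩ := eigen_zero (a := (S : M2 F) 1 1) (b := -(S : M2 F) 1 0) (c := -(S : M2 F) 0 1) (d := (S : M2 F) 0 0)
    (by rw [Matrix.trace_fin_two]; ring) (by rw [hκ2]; ring) hnr (x := b 5) (y := b 6) (r := 1)
    (by linear_combination c5) (by linear_combination c6)
  have b4 : b 4 = 0 := by
    simp only [N8, b0, b7, b2, b3, b5, b6, b1] at hN
    simpa using hN
  apply o_ext <;> simp [e1, b0, b1, b2, b3, b4, b5, b6, b7]

/-- A fixed-point-free automorphism: cosets of the subgroup lie in one class. -/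
theorem exists_conj_of_fpf {G : Type*} [Group G] (H : Subgroup G) [Finite H] (x : G)
    (hN : ∀ h ∈ H, x * h * x⁻¹ ∈ H) (hC : ∀ h ∈ H, x * h = h * x → h = 1) {h₀ : G} (hh₀ : h₀ ∈ H) :
    ∃ h : G, h₀ * x = h * x * h⁻¹ := by
  let φ : H → H := fun h => ⟨h * (x * (h : G)⁻¹ * x⁻¹), H.mul_mem h.2 (hN _ (H.inv_mem h.2))⟩
  have hinj : Function.Injective φ := by
    intro a b hab
    have e : (a : G) * (x * (a : G)⁻¹ * x⁻¹) = b * (x * (b : G)⁻¹ * x⁻¹) := congrArg Subtype.val hab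
    have e2 : (a : G) * x * (a : G)⁻¹ = b * x * (b : G)⁻¹ := by
      have : (a : G) * (x * (a : G)⁻¹ * x⁻¹) * x = b * (x * (b : G)⁻¹ * x⁻¹) * x := by rw [e]
      simpa [mul_assoc] using this
    have e3 : x * ((b : G)⁻¹ * a) = ((b : G)⁻¹ * a) * x := by
      have : (b : G)⁻¹ * ((a : G) * x * (a : G)⁻¹) * a = (b : G)⁻¹ * (b * x * (b : G)⁻¹) * a := by rw [e2]
      simp only [mul_assoc, inv_mul_cancel_left, inv_mul_cancel, mul_one] at this
      rw [mul_assoc]
      exact this.symm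
    have e4 := hC _ (H.mul_mem (H.inv_mem b.2) a.2) e3
    apply Subtype.ext
    have : (a : G) = b * ((b : G)⁻¹ * a) := by group
    rw [this, e4, mul_one]
  obtain ⟨h, hh⟩ := (Finite.injective_iff_surjective.1 hinj) ⟨h₀, hh₀⟩
  have e : (h : G) * (x * (h : G)⁻¹ * x⁻¹) = h₀ := congrArg Subtype.val hh
  refine ⟨h, ?_⟩
  rw [← e]
  group

section Fin

variable [Finite F]

instance : Finite (GG F) := inferInstance

/-- A coset of the upper radical lies in the class of the Levi element. -/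
theorem conj_QU (S : GL (Fin 2) F) (hnr : ∀ r : F, r * r - (S : M2 F).trace * r + (S : M2 F).det ≠ 0)
    (hd1 : (S : M2 F).det ≠ 1) {u : GG F} (hu : u ∈ QU F) : ∃ g : GG F, u * lev S = g * lev S * g⁻¹ :=
  exists_conj_of_fpf (QU F) (lev S) (fun _ h => lev_conj_QU S h) (fun _ h hc => QU_fpf S hnr hd1 h hc) hu

/-- A coset of the lower radical lies in the class of the Levi element. -/
theorem conj_QL (S : GL (Fin 2) F) (hnr : ∀ r : F, r * r - (S : M2 F).trace * r + (S : M2 F).det ≠ 0)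
    (hd1 : (S : M2 F).det ≠ 1) {v : GG F} (hv : v ∈ QL F) : ∃ g : GG F, lev S * v = g * lev S * g⁻¹ := by
  obtain ⟨g, hg⟩ := exists_conj_of_fpf (QL F) (lev S) (fun _ h => lev_conj_QL S h)
    (fun _ h hc => QL_fpf S hnr hd1 h hc) (lev_conj_QL S hv)
  refine ⟨g, ?_⟩
  rw [← hg]
  group

/-- Good blocks. -/
def GoodN (N : M2 F) : Prop := N = 1 ∨ (¬ IsScalar2 N ∧ N.trace ≠ 2)

/-- An element of the big cell with good Levi part is a product of two conjugates. -/
theorem factor_of_good (M : GL (Fin 2) F) (hτ : (M : M2 F).trace ≠ 0) (hd1 : (M : M2 F).det ≠ 1)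
    (hnr : ∀ r : F, r * r - (M : M2 F).trace * r + (M : M2 F).det ≠ 0) (y : GG F)
    (hκ : (ac y f1) 4 = (M : M2 F).det * (M : M2 F).det)
    (hg : GoodN (((M : M2 F).det)⁻¹ • Nblk y)) :
    ∃ a b : GG F, y = (a * lev M * a⁻¹) * (b * lev M * b⁻¹) := by
  set τ := (M : M2 F).trace with hτdef
  set d := (M : M2 F).det with hddef
  have hd0 : d ≠ 0 := det_ne M
  obtain ⟨u, hu, v, hv, S, hy, hSd, hSN⟩ := gauss y (by rw [hκ]; exact mul_ne_zero hd0 hd0)
  rw [hκ] at hSd
  rw [← hSN] at hg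
  set N := d⁻¹ • (S : M2 F) with hN
  have hNdet : N.det = 1 := by
    rw [hN, Matrix.det_smul, hSd]
    simp
    field_simp
  obtain ⟨N₁, N₂, hfac, h1t, h1d, h2t, h2d⟩ := Cfsg.Agent.Lib.OreP4.exists_factor τ d hτ hd0 N hNdet hg
  have hd1' : N₁.det ≠ 0 := by rwa [h1d]
  have hd2' : (d • N₂).det ≠ 0 := by
    rw [Matrix.det_smul, h2d]
    simp
    exact hd0
  let g₁ : GL (Fin 2) F := GeneralLinearGroup.mkOfDetNeZero N₁ hd1'
  let g₂ : GL (Fin 2) F := GeneralLinearGroup.mkOfDetNeZero (d • N₂) hd2'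
  have hg₁ : (g₁ : M2 F) = N₁ := rfl
  have hg₂ : (g₂ : M2 F) = d • N₂ := rfl
  have hSfac : S = g₁ * g₂ := by
    apply Units.ext
    rw [Units.val_mul, hg₁, hg₂, Matrix.mul_smul, ← hfac, hN, smul_smul, mul_inv_cancel₀ hd0, one_smul]
  have h2t' : (g₂ : M2 F).trace = τ := by
    rw [hg₂, Matrix.trace_smul, h2t]
    simp
    field_simp
  have h2d' : (g₂ : M2 F).det = d := by
    rw [hg₂, Matrix.det_smul, h2d]
    simp
    field_simp
  have hnrM : ¬ IsScalar2 (M : M2 F) := Cfsg.Agent.Lib.OreP4.not_scalar_of_no_root _ τ d rfl rfl hnr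
  have hnr1 : ¬ IsScalar2 (g₁ : M2 F) := Cfsg.Agent.Lib.OreP4.not_scalar_of_no_root _ τ d h1t h1d hnr
  have hnr2 : ¬ IsScalar2 (g₂ : M2 F) := Cfsg.Agent.Lib.OreP4.not_scalar_of_no_root _ τ d h2t' h2d' hnr
  have hM1 : IsConj M g₁ := isConj_of_trace_det_eq hnrM hnr1 (by rw [hg₁, h1t]) (by rw [hg₁, h1d])
  have hM2 : IsConj M g₂ := isConj_of_trace_det_eq hnrM hnr2 h2t'.symm h2d'.symm
  have hc1 : ∀ r : F, r * r - (g₁ : M2 F).trace * r + (g₁ : M2 F).det ≠ 0 := by
    rw [hg₁, h1t, h1d]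
    exact hnr
  have hc2 : ∀ r : F, r * r - (g₂ : M2 F).trace * r + (g₂ : M2 F).det ≠ 0 := by
    rw [h2t', h2d']
    exact hnr
  obtain ⟨a', ha'⟩ := conj_QU g₁ hc1 (by rw [hg₁, h1d]; exact hd1) hu
  obtain ⟨b', hb'⟩ := conj_QL g₂ hc2 (by rw [h2d']; exact hd1) hv
  obtain ⟨c₁, hc₁⟩ := isConj_iff.1 (MonoidHom.map_isConj lev hM1)
  obtain ⟨c₂, hc₂⟩ := isConj_iff.1 (MonoidHom.map_isConj lev hM2)
  refine ⟨a' * c₁, b' * c₂, ?_⟩
  have e1 : (a' * c₁) * lev M * (a' * c₁)⁻¹ = u * lev g₁ := by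
    rw [ha', ← hc₁]
    group
  have e2 : (b' * c₂) * lev M * (b' * c₂)⁻¹ = lev g₂ * v := by
    rw [hb', ← hc₂]
    group
  rw [e1, e2, hy, hSfac, map_mul]
  group

end Fin

end Cfsg.Agent.Lib.OreG2
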