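import Mathlib
import Cfsg.Agent.Lib.OreG2.Fpf

/-!
# Elements moving no singular point far, and transitivity
-/

set_option autoImplicit false
set_option linter.unusedSectionVars false
set_option linter.unusedSimpArgs false
set_option linter.unusedVariables false
set_option linter.unnecessarySeqFocus false

namespace Cfsg.Agent.Lib.OreG2

open Cfsg.Lie Matrix Cfsg.Agent.Lib.G2Oct.Zorn Cfsg.Agent.Lib.G2Oct.Stab Cfsg.Agent.Lib.Linalg.GL2Conj

variable {F : Type*} [Field F]

/-- Singular vectors. -/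
def Sing (b : O F) : Prop := T8 b = 0 ∧ N8 b = 0

theorem sing_ac (g : GG F) {b : O F} (h : Sing b) : Sing (ac g b) := ⟨by rw [ac_T8, h.1], by rw [ac_N8, h.2]⟩

theorem sing_e1 : Sing (e1 : O F) := ⟨by simp [T8, e1], by simp [N8, e1]⟩
theorem sing_e2 : Sing (e2 : O F) := ⟨by simp [T8, e2], by simp [N8, e2]⟩
theorem sing_e3 : Sing (e3 : O F) := ⟨by simp [T8, e3], by simp [N8, e3]⟩
theorem sing_f1 : Sing (f1 : O F) := ⟨by simp [T8, f1], by simp [N8, f1]⟩
theorem sing_f2 : Sing (f2 : O F) := ⟨by simp [T8, f2], by simp [N8, f2]⟩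
theorem sing_f3 : Sing (f3 : O F) := ⟨by simp [T8, f3], by simp [N8, f3]⟩

/-- Transitivity on singular vectors. -/
theorem exists_move_f1 {b : O F} (h : Sing b) (hne : b ≠ 0) : ∃ g : GG F, ac g b = f1 := by
  have hT : T8 (-b) = 0 := by
    simp only [T8, Pi.neg_apply]
    have := h.1
    simp only [T8] at this
    linear_combination -this
  have hN : N8 (-b) = 0 := by
    have := h.2
    simp only [N8, Pi.neg_apply] at this ⊢
    linear_combination this
  obtain ⟨g, hg, he⟩ := exists_move_sing hT hN (neg_ne_zero.2 hne)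
  refine ⟨swE * ⟨g, hg⟩, ?_⟩
  rw [ac_mul, ac_swE]
  have e : ac (⟨g, hg⟩ : GG F) b = - e1 := by
    have : ac (⟨g, hg⟩ : GG F) (-b) = e1 := he
    rw [ac_neg] at this
    rw [← this, neg_neg]
  rw [e]
  apply o_ext <;> simp [swF, e1, f1]

/-- The sum of two basis vectors. -/
theorem sing_add {x y : O F} (hx : Sing x) (hy : Sing y) (h : B8 x y = 0) : Sing (x + y) := by
  refine ⟨?_, ?_⟩
  · have h1 := hx.1
    have h2 := hy.1
    simp only [T8, Pi.add_apply] at h1 h2 ⊢
    linear_combination h1 + h2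
  · have := B8_eq x y
    rw [h, hx.2, hy.2] at this
    linear_combination -this

/-- An element fixing all singular lines is trivial. -/
theorem eq_one_of_lines {y : GG F} (h : ∀ b : O F, Sing b → ∃ γ : F, ac y b = γ • b) : y = 1 := by
  obtain ⟨γ₁, h1⟩ := h e1 sing_e1
  obtain ⟨γ₂, h2⟩ := h e2 sing_e2
  obtain ⟨γ₃, h3⟩ := h e3 sing_e3
  obtain ⟨δ₁, h4⟩ := h f1 sing_f1
  obtain ⟨δ₂, h5⟩ := h f2 sing_f2
  obtain ⟨δ₃, h6⟩ := h f3 sing_f3
  have hc1 : γ₁ = γ₂ := by
    obtain ⟨γ, hγ⟩ := h (e1 + e2) (sing_add sing_e1 sing_e2 (by simp [B8, e1, e2]))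
    rw [ac_add, h1, h2] at hγ
    have a1 := congrFun hγ 1
    have a2 := congrFun hγ 2
    simp [e1, e2] at a1 a2
    rw [a1, a2]
  have hc2 : γ₂ = γ₃ := by
    obtain ⟨γ, hγ⟩ := h (e2 + e3) (sing_add sing_e2 sing_e3 (by simp [B8, e2, e3]))
    rw [ac_add, h2, h3] at hγ
    have a1 := congrFun hγ 2
    have a2 := congrFun hγ 3
    simp [e2, e3] at a1 a2
    rw [a1, a2]
  have hc3 : γ₁ = δ₂ := by
    obtain ⟨γ, hγ⟩ := h (e1 + f2) (sing_add sing_e1 sing_f2 (by simp [B8, e1, f2]))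
    rw [ac_add, h1, h5] at hγ
    have a1 := congrFun hγ 1
    have a2 := congrFun hγ 5
    simp [e1, f2] at a1 a2
    rw [a1, a2]
  have hc4 : δ₁ = δ₂ := by
    obtain ⟨γ, hγ⟩ := h (f1 + f2) (sing_add sing_f1 sing_f2 (by simp [B8, f1, f2]))
    rw [ac_add, h4, h5] at hγ
    have a1 := congrFun hγ 4
    have a2 := congrFun hγ 5
    simp [f1, f2] at a1 a2
    rw [a1, a2]
  have hc5 : δ₂ = δ₃ := by
    obtain ⟨γ, hγ⟩ := h (f2 + f3) (sing_add sing_f2 sing_f3 (by simp [B8, f2, f3]))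
    rw [ac_add, h5, h6] at hγ
    have a1 := congrFun hγ 5
    have a2 := congrFun hγ 6
    simp [f2, f3] at a1 a2
    rw [a1, a2]
  have h2' : ac y e2 = γ₁ • e2 := by rw [h2, hc1]
  have h3' : ac y e3 = γ₁ • e3 := by rw [h3, ← hc2, hc1]
  have h5' : ac y f2 = γ₁ • f2 := by rw [h5, hc3]
  have h4' : ac y f1 = γ₁ • f1 := by rw [h4, hc4, hc3]
  have h6' : ac y f3 = γ₁ • f3 := by rw [h6, ← hc5, hc3]
  have hne : γ₁ ≠ 0 := by
    intro h0
    rw [h0, zero_smul, ← ac_zero y] at h1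
    have := congrFun (ac_inj y h1) 1
    simp [e1] at this
  have hsq : γ₁ = 1 := by
    have e := ac_hom y e1 e2
    rw [mul_e1_e2, h1, h2', h6'] at e
    have a := congrFun e 6
    simp [zm, e1, e2, f3] at a
    have : γ₁ * (γ₁ - 1) = 0 := by linear_combination -a
    have := (mul_eq_zero.1 this).resolve_left hne
    linear_combination this
  rw [hsq, one_smul] at h1 h2' h3' h4' h5' h6'
  have h0 : ac y e0 = e0 := by
    rw [← mul_e1_f1, ac_hom, h1, h4']
  have h7 : ac y e7 = e7 := by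
    rw [← mul_f1_e1, ac_hom, h1, h4']
  apply gg_ext
  intro x
  rw [ac_one]
  conv_lhs => rw [o_decomp x]
  simp only [ac_add, ac_smul, h0, h1, h2', h3', h4', h5', h6', h7]
  exact (o_decomp x).symm

/-- If `x · y x = 0` for all singular `x`, then `y f₁` is proportional to `f₁`. -/
theorem line_of_null {y : GG F} (h : ∀ b : O F, Sing b → zornMul b (ac y b) = 0) : ∃ γ : F, ac y f1 = γ • f1 := by
  set r := ac y f1 with hr
  set c2 := ac y e2 with hc2
  set c3 := ac y e3 with hc3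
  have hrS : Sing r := sing_ac y sing_f1
  have hc2S : Sing c2 := sing_ac y sing_e2
  have hc3S : Sing c3 := sing_ac y sing_e3
  have h1 : zornMul f1 r = 0 := h f1 sing_f1
  have h2 : zornMul e2 c2 = 0 := h e2 sing_e2
  have h3 : zornMul e3 c3 = 0 := h e3 sing_e3
  have h4 : zornMul (f1 + e2) (r + c2) = 0 := by
    have := h (f1 + e2) (sing_add sing_f1 sing_e2 (by simp [B8, f1, e2]))
    rwa [ac_add] at this
  have h5 : zornMul (f1 + e3) (r + c3) = 0 := by
    have := h (f1 + e3) (sing_add sing_f1 sing_e3 (by simp [B8, f1, e3]))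
    rwa [ac_add] at this
  have t0 : r 7 = - r 0 := by
    have := hrS.1
    simp only [T8] at this
    linear_combination this
  have a0 := congrFun h1 0
  have a1 := congrFun h1 2
  have a2 := congrFun h1 3
  have a3 := congrFun h1 4
  have a4 := congrFun h1 7
  simp [zm, f1] at a1 a2 a3 a4
  have b1 := congrFun h2 0
  have b2 := congrFun h2 2
  have b3 := congrFun h2 4
  have b4 := congrFun h2 6
  simp [zm, e2] at b1 b2 b3 b4
  have b5 : c2 0 = 0 := by
    have := hc2S.1
    simp only [T8, b2, add_zero] at this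
    exact this
  have d1 := congrFun h3 0
  have d2 := congrFun h3 3
  have d3 := congrFun h3 4
  have d4 := congrFun h3 5
  simp [zm, e3] at d1 d2 d3 d4
  have d5 : c3 0 = 0 := by
    have := hc3S.1
    simp only [T8, d2, add_zero] at this
    exact this
  have e1' := congrFun h4 4
  have e2' := congrFun h5 4
  simp [zm, f1, e2, e3, a3, b5, d5, b3, d3] at e1' e2'
  refine ⟨r 4, ?_⟩
  have r7 : r 7 = 0 := by rw [t0, a3, neg_zero]
  apply o_ext <;> simp [f1, a3, a4, e1', e2', a1, a2, r7]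

/-- A nontrivial element moves some singular vector to a non-incident one. -/
theorem exists_not_null {y : GG F} (hy : y ≠ 1) : ∃ b : O F, Sing b ∧ zornMul b (ac y b) ≠ 0 := by
  by_contra hc
  push Not at hc
  apply hy
  apply eq_one_of_lines
  intro b hb
  by_cases hb0 : b = 0
  · exact ⟨0, by rw [hb0, ac_zero, smul_zero]⟩
  obtain ⟨g, hg⟩ := exists_move_f1 hb hb0
  have hnull : ∀ z : O F, Sing z → zornMul z (ac (g * y * g⁻¹) z) = 0 := by
    intro z hz
    have h1 := hc (ac g⁻¹ z) (sing_ac _ hz)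
    have h2 := congrArg (ac g) h1
    rw [ac_hom, ac_ac_inv, ac_zero] at h2
    rw [ac_mul, ac_mul]
    exact h2
  obtain ⟨γ, hγ⟩ := line_of_null hnull
  refine ⟨γ, ?_⟩
  apply ac_inj g
  rw [ac_smul, hg]
  rw [ac_mul, ac_mul, ← hg, ac_inv_ac, hg] at hγ
  rw [← hγ]
end Cfsg.Agent.Lib.OreG2
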