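import Mathlib
import Cfsg.Agent.Lib.OreG2.Null

/-!
# Elements moving a singular point to an opposite one
-/

set_option autoImplicit false
set_option linter.unusedSectionVars false
set_option linter.unusedSimpArgs false
set_option linter.unusedVariables false
set_option linter.unnecessarySeqFocus false

namespace Cfsg.Agent.Lib.OreG2

open Cfsg.Lie Matrix Cfsg.Agent.Lib.G2Oct.Zorn Cfsg.Agent.Lib.G2Oct.Stab Cfsg.Agent.Lib.Linalg.GL2Conj

variable {F : Type*} [Field F]

/-- The matrix of `y` on the second vectors. -/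
noncomputable def Gm (y : GG F) : M2 F := !![(ac y e2) 5, (ac y e3) 5; (ac y e2) 6, (ac y e3) 6]

/-- The matrix depending on the lower radical element. -/
noncomputable def Pim (v : GG F) : M2 F :=
  !![(ac v f2) 2 - (ac v f2) 4 * (ac v e1) 2 / (ac v e1) 4, (ac v f2) 3 - (ac v f2) 4 * (ac v e1) 3 / (ac v e1) 4;
     (ac v f3) 2 - (ac v f3) 4 * (ac v e1) 2 / (ac v e1) 4, (ac v f3) 3 - (ac v f3) 4 * (ac v e1) 3 / (ac v e1) 4]

theorem opp_coords {y : GG F} {ρ : F} (hρ : ρ ≠ 0) (h : ac y f1 = ρ • e1) {z : O F} (hz : zornMul z f1 = 0)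
    (hT : T8 z = 0) : (ac y z) 0 = 0 ∧ (ac y z) 2 = 0 ∧ (ac y z) 3 = 0 ∧ (ac y z) 4 = 0 ∧ (ac y z) 7 = 0 := by
  have e := ac_hom y z f1
  rw [hz, ac_zero, h] at e
  set c := ac y z with hc
  have hTc : T8 c = 0 := by rw [hc, ac_T8, hT]
  have a0 := congrFun e 1
  have a2 := congrFun e 6
  have a3 := congrFun e 5
  have a4 := congrFun e 7
  simp [zm, e1, hρ] at a0 a2 a3 a4
  have a7 : c 7 = 0 := by
    simp only [T8] at hTc
    rw [a0] at hTc
    simpa using hTc
  exact ⟨a0, a2, a3, a4, a7⟩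

theorem Gm_det {y : GG F} {ρ : F} (hρ : ρ ≠ 0) (h : ac y f1 = ρ • e1) : (Gm y).det = -ρ := by
  have e := ac_hom y e2 e3
  rw [mul_e2_e3, h] at e
  have a := congrFun e 1
  simp [zm, e1] at a
  obtain ⟨x0, -, -, -, x7⟩ := opp_coords hρ h (z := e2) mul_e2_f1 sing_e2.1
  obtain ⟨w0, -, -, -, w7⟩ := opp_coords hρ h (z := e3) mul_e3_f1 sing_e3.1
  rw [Gm, Matrix.det_fin_two]
  simp
  rw [x0, w7] at a
  linear_combination a

theorem coord_inv (v : GG F) (x : O F) : (ac v⁻¹ x) 2 = - B8 (ac v f2) x ∧ (ac v⁻¹ x) 3 = - B8 (ac v f3) x ∧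
    (ac v⁻¹ x) 4 = - B8 (ac v e1) x := by
  refine ⟨?_, ?_, ?_⟩
  · have e := ac_B8 v f2 (ac v⁻¹ x)
    rw [ac_ac_inv, B8_f2] at e
    rw [e, neg_neg]
  · have e := ac_B8 v f3 (ac v⁻¹ x)
    rw [ac_ac_inv, B8_f3] at e
    rw [e, neg_neg]
  · have e := ac_B8 v e1 (ac v⁻¹ x)
    rw [ac_ac_inv, B8_e1] at e
    rw [e, neg_neg]

/-- The bilinear form against a vector of the normal form. -/
theorem B8_normal (z c : O F) (η : F) (h0 : c 0 = 0) (h2 : c 2 = 0) (h3 : c 3 = 0) (h4 : c 4 = 0) (h7 : c 7 = 0) :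
    B8 z (c + η • e1) = - (z 4 * c 1 + z 2 * c 5 + z 3 * c 6 + η * z 4) := by
  simp [B8, h0, h2, h3, h4, h7, e1]
  ring

/-- The Levi part of a conjugate of an element sending `f₁` to `ρ e₁`. -/
theorem Nblk_opp {y : GG F} {ρ : F} (hρ : ρ ≠ 0) (h : ac y f1 = ρ • e1) {v : GG F} (hv : v ∈ QL F)
    (ha : (ac v e1) 4 ≠ 0) :
    (ac (v⁻¹ * y * v) f1) 4 = ρ * (ac v e1) 4 ∧ Nblk (v⁻¹ * y * v) = Pim v * Gm y := by
  obtain ⟨h1, ⟨ξ₂, h2⟩, ⟨ξ₃, h3⟩⟩ := hv
  obtain ⟨p0, p2, p3, p4, p7⟩ := opp_coords hρ h (z := e2) mul_e2_f1 sing_e2.1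
  obtain ⟨q0, q2, q3, q4, q7⟩ := opp_coords hρ h (z := e3) mul_e3_f1 sing_e3.1
  set a := ac v e1 with haD
  set z2 := ac v f2 with hz2
  set z3 := ac v f3 with hz3
  set c2 := ac y e2 with hc2
  set c3 := ac y e3 with hc3
  have hyf : ac (v⁻¹ * y * v) f1 = ρ • ac v⁻¹ e1 := by
    rw [ac_mul, ac_mul, h1, h, ac_smul]
  have hye2 : ac (v⁻¹ * y * v) e2 = ac v⁻¹ (c2 + (ξ₂ * ρ) • e1) := by
    rw [ac_mul, ac_mul, h2, ac_add, ac_smul, h, smul_smul]
  have hye3 : ac (v⁻¹ * y * v) e3 = ac v⁻¹ (c3 + (ξ₃ * ρ) • e1) := by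
    rw [ac_mul, ac_mul, h3, ac_add, ac_smul, h, smul_smul]
  obtain ⟨k2, k3, k4⟩ := coord_inv v e1
  rw [← hz2, B8_comm, B8_e1] at k2
  rw [← hz3, B8_comm, B8_e1] at k3
  rw [← haD, B8_comm, B8_e1] at k4
  obtain ⟨l2, l3, l4⟩ := coord_inv v (c2 + (ξ₂ * ρ) • e1)
  obtain ⟨m2, m3, m4⟩ := coord_inv v (c3 + (ξ₃ * ρ) • e1)
  rw [← hz2, B8_normal _ _ _ p0 p2 p3 p4 p7] at l2
  rw [← hz3, B8_normal _ _ _ p0 p2 p3 p4 p7] at l3
  rw [← haD, B8_normal _ _ _ p0 p2 p3 p4 p7] at l4
  rw [← hz2, B8_normal _ _ _ q0 q2 q3 q4 q7] at m2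
  rw [← hz3, B8_normal _ _ _ q0 q2 q3 q4 q7] at m3
  rw [← haD, B8_normal _ _ _ q0 q2 q3 q4 q7] at m4
  rw [← hye2] at l2 l3 l4
  rw [← hye3] at m2 m3 m4
  have hf2 : (ac (v⁻¹ * y * v) f1) 2 = ρ * z2 4 := by
    rw [hyf, Pi.smul_apply, k2, smul_eq_mul]
    simp
  have hf3 : (ac (v⁻¹ * y * v) f1) 3 = ρ * z3 4 := by
    rw [hyf, Pi.smul_apply, k3, smul_eq_mul]
    simp
  have hf4 : (ac (v⁻¹ * y * v) f1) 4 = ρ * a 4 := by
    rw [hyf, Pi.smul_apply, k4, smul_eq_mul]
    simp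
  refine ⟨hf4, ?_⟩
  ext i j
  fin_cases i <;> fin_cases j
  · show (ac (v⁻¹ * y * v) e2) 2 - (ac (v⁻¹ * y * v) f1) 2 * (ac (v⁻¹ * y * v) e2) 4 / (ac (v⁻¹ * y * v) f1) 4 = _
    rw [hf2, hf4, l2, l4]
    simp [Matrix.mul_apply, Fin.sum_univ_two, Pim, Gm, ← haD, ← hz2, ← hz3, ← hc2, ← hc3]
    field_simp
    ring
  · show (ac (v⁻¹ * y * v) e3) 2 - (ac (v⁻¹ * y * v) f1) 2 * (ac (v⁻¹ * y * v) e3) 4 / (ac (v⁻¹ * y * v) f1) 4 = _
    rw [hf2, hf4, m2, m4]
    simp [Matrix.mul_apply, Fin.sum_univ_two, Pim, Gm, ← haD, ← hz2, ← hz3, ← hc2, ← hc3]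
    field_simp
    ring
  · show (ac (v⁻¹ * y * v) e2) 3 - (ac (v⁻¹ * y * v) f1) 3 * (ac (v⁻¹ * y * v) e2) 4 / (ac (v⁻¹ * y * v) f1) 4 = _
    rw [hf3, hf4, l3, l4]
    simp [Matrix.mul_apply, Fin.sum_univ_two, Pim, Gm, ← haD, ← hz2, ← hz3, ← hc2, ← hc3]
    field_simp
    ring
  · show (ac (v⁻¹ * y * v) e3) 3 - (ac (v⁻¹ * y * v) f1) 3 * (ac (v⁻¹ * y * v) e3) 4 / (ac (v⁻¹ * y * v) f1) 4 = _
    rw [hf3, hf4, m3, m4]
    simp [Matrix.mul_apply, Fin.sum_univ_two, Pim, Gm, ← haD, ← hz2, ← hz3, ← hc2, ← hc3]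
    field_simp
    ring

/-- A binary form `ξ² + c η²` represents everything over a finite field. -/
theorem exists_rep [Fintype F] (c D : F) (hc : c ≠ 0) : ∃ ξ η : F, ξ * ξ + c * (η * η) = D := by
  classical
  by_cases h2 : ringChar F = 2
  · obtain ⟨r, hr⟩ := FiniteField.isSquare_of_char_two h2 D
    exact ⟨r, 0, by simp [hr]⟩
  · have hodd : Fintype.card F % 2 = 1 := FiniteField.odd_card_of_char_ne_two h2
    obtain ⟨a, b, hab⟩ := FiniteField.exists_root_sum_quadratic (R := F)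
      (f := Polynomial.X ^ 2) (g := Polynomial.C c * Polynomial.X ^ 2 - Polynomial.C D)
      (Polynomial.degree_X_pow 2) (by
        rw [Polynomial.degree_sub_eq_left_of_degree_lt]
        · rw [Polynomial.degree_C_mul_X_pow 2 hc]
          rfl
        · rw [Polynomial.degree_C_mul_X_pow 2 hc]
          exact lt_of_le_of_lt Polynomial.degree_C_le (by norm_num)) hodd
    refine ⟨a, b, ?_⟩
    simp at hab
    linear_combination hab

theorem entry_eq {A B C V R : F} (hV0 : V ≠ 0) (h : B * C = (A - R) * V) : A - B * C / V = R := by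
  rw [h]
  field_simp
  ring

/-- The lower radical element realising a symmetric matrix. -/
theorem Pim_sym {x y z p p' : F} (hV : x * (p * p) + 2 * y * (p * p') + z * (p' * p') = y * y - x * z)
    (hV0 : y * y - x * z ≠ 0) :
    (ac (vE (x * p + y * p') (y * p + z * p') 0 p' (-p)) e1) 4 = y * y - x * z ∧
      Pim (vE (x * p + y * p') (y * p + z * p') 0 p' (-p)) = !![x, y; y, z] := by
  set v := vE (x * p + y * p') (y * p + z * p') 0 p' (-p) with hv
  have ha : ac v e1 = _ := vE_e1 _ _ _ _ _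
  have h2 : ac v f2 = _ := vE_f2 _ _ _ _ _
  have h3 : ac v f3 = _ := vE_f3 _ _ _ _ _
  have h4 : (ac v e1) 4 = y * y - x * z := by
    rw [ha]
    simp
    linear_combination hV
  have a2 : (ac v e1) 2 = x * p + y * p' := by rw [ha]; simp
  have a3 : (ac v e1) 3 = y * p + z * p' := by rw [ha]; simp
  have b2 : (ac v f2) 2 = -(p' * p') := by rw [h2]; simp; ring
  have b3 : (ac v f2) 3 = p' * p := by rw [h2]; simp
  have b4 : (ac v f2) 4 = -(x * p + y * p') := by rw [h2]; simp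
  have c2 : (ac v f3) 2 = p' * p := by rw [h3]; simp
  have c3 : (ac v f3) 3 = -(p * p) := by rw [h3]; simp; ring
  have c4 : (ac v f3) 4 = -(y * p + z * p') := by rw [h3]; simp
  refine ⟨h4, ?_⟩
  ext i j
  fin_cases i <;> fin_cases j
  · show (ac v f2) 2 - (ac v f2) 4 * (ac v e1) 2 / (ac v e1) 4 = x
    rw [h4, a2, b2, b4]
    exact entry_eq hV0 (by linear_combination (-x) * hV)
  · show (ac v f2) 3 - (ac v f2) 4 * (ac v e1) 3 / (ac v e1) 4 = y
    rw [h4, a3, b3, b4]
    exact entry_eq hV0 (by linear_combination (-y) * hV)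
  · show (ac v f3) 2 - (ac v f3) 4 * (ac v e1) 2 / (ac v e1) 4 = y
    rw [h4, a2, c2, c4]
    exact entry_eq hV0 (by linear_combination (-y) * hV)
  · show (ac v f3) 3 - (ac v f3) 4 * (ac v e1) 3 / (ac v e1) 4 = z
    rw [h4, a3, c3, c4]
    exact entry_eq hV0 (by linear_combination (-z) * hV)

/-- The lower radical element realising an alternating matrix. -/
theorem Pim_alt (t : F) (ht : t ≠ 0) :
    (ac (vE 0 0 t 0 0) e1) 4 = - (t * t) ∧ Pim (vE 0 0 t 0 0) = !![0, -t; t, 0] := by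
  set v := vE 0 0 t 0 0 with hv
  have ha : ac v e1 = _ := vE_e1 _ _ _ _ _
  have h2 : ac v f2 = _ := vE_f2 _ _ _ _ _
  have h3 : ac v f3 = _ := vE_f3 _ _ _ _ _
  have h4 : (ac v e1) 4 = -(t * t) := by
    rw [ha]
    simp
    ring
  refine ⟨h4, ?_⟩
  ext i j
  fin_cases i <;> fin_cases j
  · show (ac v f2) 2 - (ac v f2) 4 * (ac v e1) 2 / (ac v e1) 4 = 0
    rw [h2]
    simp
  · show (ac v f2) 3 - (ac v f2) 4 * (ac v e1) 3 / (ac v e1) 4 = -t
    rw [h2]
    simp
  · show (ac v f3) 2 - (ac v f3) 4 * (ac v e1) 2 / (ac v e1) 4 = t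
    rw [h3]
    simp
  · show (ac v f3) 3 - (ac v f3) 4 * (ac v e1) 3 / (ac v e1) 4 = 0
    rw [h3]
    simp

/-- Symmetric non-alternating matrices with determinant `c` are realised up to the scalar `d`. -/
theorem exists_pq [Fintype F] {A e B c d : F} (hdet : A * B - e * e = c) (hc : c ≠ 0) (hd : d ≠ 0)
    (hAB : A ≠ 0 ∨ B ≠ 0) :
    ∃ p p' : F, (d * A) * (p * p) + 2 * (d * e) * (p * p') + (d * B) * (p' * p') =
      (d * e) * (d * e) - (d * A) * (d * B) := by
  rcases hAB with hA | hB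
  · obtain ⟨ξ, η, h⟩ := exists_rep c (- A * d * c) hc
    refine ⟨(ξ - e * η) / A, η, ?_⟩
    field_simp
    rw [← hdet] at h
    linear_combination h
  · obtain ⟨ξ, η, h⟩ := exists_rep c (- B * d * c) hc
    refine ⟨η, (ξ - e * η) / B, ?_⟩
    field_simp
    rw [← hdet] at h
    linear_combination h

/-- The choice of a symmetric matrix. -/
theorem exists_R [Fintype F] (G : M2 F) (hdet : G.det ≠ 0) (hanti : ¬ (G 0 0 = 0 ∧ G 1 1 = 0 ∧ G 0 1 = - G 1 0))
    (hu : ∃ u : F, u ≠ 0 ∧ u ≠ 1) :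
    ∃ A e B : F, A * B - e * e = (G.det)⁻¹ ∧ (A ≠ 0 ∨ B ≠ 0) ∧ GoodN (!![A, e; e, B] * G) := by
  set a := G 0 0 with ha
  set b := G 0 1 with hb
  set c' := G 1 0 with hc'
  set f := G 1 1 with hf
  have hΔ : G.det = a * f - b * c' := Matrix.det_fin_two _
  set c := (G.det)⁻¹ with hc
  have hc0 : c ≠ 0 := inv_ne_zero hdet
  have hcΔ : c * (a * f - b * c') = 1 := by
    rw [← hΔ, hc]
    exact inv_mul_cancel₀ hdet
  -- entries of the product
  have hent : ∀ A e B : F, (!![A, e; e, B] * G) 0 0 = A * a + e * c' ∧ (!![A, e; e, B] * G) 0 1 = A * b + e * f ∧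
      (!![A, e; e, B] * G) 1 0 = e * a + B * c' ∧ (!![A, e; e, B] * G) 1 1 = e * b + B * f := by
    intro A e B
    simp [Matrix.mul_apply, Fin.sum_univ_two, ha, hb, hc', hf]
  -- a scalar product forces a symmetric matrix
  have hsym : ∀ A e B : F, A * B - e * e = c → IsScalar2 (!![A, e; e, B] * G) → b = c' := by
    intro A e B hd hs
    obtain ⟨e1, e2, e3⟩ := hs
    obtain ⟨h1, h2, h3, h4⟩ := hent A e B
    rw [h2] at e1
    rw [h3] at e2
    rw [h1, h4] at e3
    have : c * (b - c') = 0 := by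
      rw [← hd]
      linear_combination B * e1 - A * e2 + e * e3
    have := (mul_eq_zero.1 this).resolve_left hc0
    linear_combination this
  by_cases hcase : b = c' ∧ (a ≠ 0 ∨ f ≠ 0)
  · -- the inverse
    obtain ⟨hbc, hnz⟩ := hcase
    have hΔ0 : a * f - b * c' ≠ 0 := hΔ ▸ hdet
    refine ⟨c * f, - (c * b), c * a, ?_, ?_, Or.inl ?_⟩
    · have h1 : c * f * (c * a) - -(c * b) * -(c * b) = c * (c * (a * f - b * c')) := by
        rw [hbc]
        ring
      rw [h1, hcΔ, mul_one]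
    · rcases hnz with h | h
      · exact Or.inr (mul_ne_zero hc0 h)
      · exact Or.inl (mul_ne_zero hc0 h)
    · obtain ⟨h1, h2, h3, h4⟩ := hent (c * f) (- (c * b)) (c * a)
      ext i j
      fin_cases i <;> fin_cases j
      · show (!![c * f, -(c * b); -(c * b), c * a] * G) 0 0 = 1
        rw [h1]
        simp
        linear_combination hcΔ
      · show (!![c * f, -(c * b); -(c * b), c * a] * G) 0 1 = 0
        rw [h2]
        ring
      · show (!![c * f, -(c * b); -(c * b), c * a] * G) 1 0 = 0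
        rw [h3]
        rw [hbc]
        ring
      · show (!![c * f, -(c * b); -(c * b), c * a] * G) 1 1 = 1
        rw [h4]
        simp
        rw [hbc] at hcΔ ⊢
        linear_combination hcΔ
  · by_cases hcase2 : f ≠ 0 ∨ b + c' ≠ 0
    · -- the first family
      obtain ⟨e, he⟩ : ∃ e : F, a + e * (b + c') + (c + e * e) * f ≠ 2 := by
        by_contra hall
        push Not at hall
        obtain ⟨u, hu0, hu1⟩ := hu
        have p0 := hall 0
        have p1 := hall 1
        have pu := hall u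
        have e1 : (b + c') + f = 0 := by linear_combination p1 - p0
        have e2 : u * ((b + c') + u * f) = 0 := by linear_combination pu - p0
        have e3 : (b + c') + u * f = 0 := (mul_eq_zero.1 e2).resolve_left hu0
        have e4 : (u - 1) * f = 0 := by linear_combination e3 - e1
        have e5 : f = 0 := (mul_eq_zero.1 e4).resolve_left (sub_ne_zero.2 hu1)
        rw [e5] at e1
        rcases hcase2 with h | h
        · exact h e5
        · exact h (by linear_combination e1)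
      refine ⟨1, e, c + e * e, by ring, Or.inl one_ne_zero, Or.inr ⟨?_, ?_⟩⟩
      · intro hs
        have hbc := hsym 1 e (c + e * e) (by ring) hs
        have hzero : a = 0 ∧ f = 0 := by
          by_contra hn
          apply hcase
          refine ⟨hbc, ?_⟩
          by_contra hn2
          push Not at hn2
          exact hn hn2
        obtain ⟨-, h2, -, -⟩ := hent 1 e (c + e * e)
        have e1 := hs.1
        rw [h2, hzero.2] at e1
        have hb0 : b = 0 := by linear_combination e1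
        apply hdet
        rw [hΔ, hzero.1, hb0]
        ring
      · obtain ⟨h1, -, -, h4⟩ := hent 1 e (c + e * e)
        rw [Matrix.trace_fin_two, h1, h4]
        intro h
        apply he
        linear_combination h
    · -- the second family
      push Not at hcase2
      obtain ⟨hf0, hbc0⟩ := hcase2
      have ha0 : a ≠ 0 := by
        intro h
        apply hanti
        refine ⟨h, hf0, ?_⟩
        linear_combination hbc0
      obtain ⟨e, he⟩ : ∃ e : F, (c + e * e) * a ≠ 2 := by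
        by_contra hall
        push Not at hall
        have p0 := hall 0
        have p1 := hall 1
        apply ha0
        linear_combination p1 - p0
      refine ⟨c + e * e, e, 1, by ring, Or.inr one_ne_zero, Or.inr ⟨?_, ?_⟩⟩
      · intro hs
        have hbc := hsym (c + e * e) e 1 (by ring) hs
        exact hcase ⟨hbc, Or.inl ha0⟩
      · obtain ⟨h1, -, -, h4⟩ := hent (c + e * e) e 1
        rw [Matrix.trace_fin_two, h1, h4]
        intro h
        apply he
        rw [hf0] at h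
        linear_combination h - e * hbc0

/-- An element sending `f₁` to a multiple of `e₁` has a conjugate with a good Levi part. -/
theorem good_of_opp [Fintype F] {y : GG F} {ρ d : F} (hρ : ρ ≠ 0) (hd : d ≠ 0) (h : ac y f1 = ρ • e1)
    (hu : ∃ u : F, u ≠ 0 ∧ u ≠ 1) :
    ∃ v : GG F, (ac (v⁻¹ * y * v) f1) 4 = d * d ∧ GoodN (d⁻¹ • Nblk (v⁻¹ * y * v)) := by
  set G := Gm y with hG
  have hdetG : G.det = -ρ := Gm_det hρ h
  have hdet0 : G.det ≠ 0 := by
    rw [hdetG]
    exact neg_ne_zero.2 hρ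
  by_cases hanti : G 0 0 = 0 ∧ G 1 1 = 0 ∧ G 0 1 = - G 1 0
  · -- alternating
    obtain ⟨a0, a1, a2⟩ := hanti
    set k := G 0 1 with hk
    have hG10' : G 1 0 = -k := by linear_combination a2
    have hk2 : k * k = -ρ := by
      rw [← hdetG, Matrix.det_fin_two, a0, a1, ← hk, hG10']
      ring
    have hk0 : k ≠ 0 := by
      intro h0
      apply hρ
      rw [h0] at hk2
      linear_combination hk2
    set t := d / k with ht
    have ht0 : t ≠ 0 := div_ne_zero hd hk0
    have htk : t * k = d := by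
      rw [ht]
      field_simp
    obtain ⟨p1, p2⟩ := Pim_alt t ht0
    have ha : (ac (vE 0 0 t 0 0) e1) 4 ≠ 0 := by
      rw [p1]
      exact neg_ne_zero.2 (mul_ne_zero ht0 ht0)
    obtain ⟨q1, q2⟩ := Nblk_opp hρ h (vE_mem 0 0 t 0 0) ha
    refine ⟨vE 0 0 t 0 0, ?_, Or.inl ?_⟩
    · rw [q1, p1, ← htk]
      linear_combination (-(t * t)) * hk2
    · rw [q2, p2]
      have hGm : Gm y = !![0, k; -k, 0] := by
        rw [← hG]
        ext i j
        fin_cases i <;> fin_cases j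
        · exact a0
        · exact hk.symm
        · exact hG10'
        · exact a1
      rw [hGm]
      have hprod : (!![0, -t; t, 0] * !![0, k; -k, 0] : M2 F) = d • (1 : M2 F) := by
        rw [← htk]
        ext i j
        fin_cases i <;> fin_cases j <;> simp [Matrix.mul_apply, Fin.sum_univ_two]
      rw [hprod, smul_smul, inv_mul_cancel₀ hd, one_smul]
  · obtain ⟨A, e, B, hdetR, hAB, hgood⟩ := exists_R G hdet0 hanti hu
    have hc0 : (G.det)⁻¹ ≠ 0 := inv_ne_zero hdet0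
    obtain ⟨p, p', hV⟩ := exists_pq hdetR hc0 hd hAB
    have hV0 : (d * e) * (d * e) - (d * A) * (d * B) ≠ 0 := by
      have : (d * e) * (d * e) - (d * A) * (d * B) = - (d * d * (G.det)⁻¹) := by
        rw [← hdetR]
        ring
      rw [this]
      exact neg_ne_zero.2 (mul_ne_zero (mul_ne_zero hd hd) hc0)
    obtain ⟨p1, p2⟩ := Pim_sym hV hV0
    have ha : (ac (vE (d * A * p + d * e * p') (d * e * p + d * B * p') 0 p' (-p)) e1) 4 ≠ 0 := by
      rw [p1]
      exact hV0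
    obtain ⟨q1, q2⟩ := Nblk_opp hρ h (vE_mem _ _ _ _ _) ha
    refine ⟨vE (d * A * p + d * e * p') (d * e * p + d * B * p') 0 p' (-p), ?_, ?_⟩
    · rw [q1, p1]
      have : (d * e) * (d * e) - (d * A) * (d * B) = - (d * d * (G.det)⁻¹) := by
        rw [← hdetR]
        ring
      rw [this, hdetG]
      field_simp
    · rw [q2, p2]
      have : d⁻¹ • (!![d * A, d * e; d * e, d * B] * Gm y) = !![A, e; e, B] * G := by
        have e0 : (!![d * A, d * e; d * e, d * B] : M2 F) = d • !![A, e; e, B] := by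
          ext i j
          fin_cases i <;> fin_cases j <;> simp
        rw [e0, Matrix.smul_mul, smul_smul, inv_mul_cancel₀ hd, one_smul]
      rw [this]
      exact hgood

end Cfsg.Agent.Lib.OreG2
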