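import Mathlib
import Cfsg.Agent.Lib.OreG2.Opp

/-!
# Elements with `B (x, y x) = 0` for all singular `x`: long root elements
-/

set_option autoImplicit false
set_option linter.unusedSectionVars false
set_option linter.unusedSimpArgs false
set_option linter.unusedVariables false
set_option linter.unnecessarySeqFocus false

namespace Cfsg.Agent.Lib.OreG2

open Cfsg.Lie Matrix Cfsg.Agent.Lib.G2Oct.Zorn Cfsg.Agent.Lib.G2Oct.Stab Cfsg.Agent.Lib.Linalg.GL2Conj

variable {F : Type*} [Field F]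

/-- The form vanishes along the element. -/
def PsiZero (y : GG F) : Prop := ∀ b : O F, Sing b → B8 b (ac y b) = 0

theorem PsiZero.conj {y : GG F} (h : PsiZero y) (g : GG F) : PsiZero (g * y * g⁻¹) := by
  intro b hb
  rw [ac_mul, ac_mul]
  have := h (ac g⁻¹ b) (sing_ac _ hb)
  rw [← ac_B8 g, ac_ac_inv] at this
  exact this

theorem B8_add_add (a b c d : O F) : B8 (a + b) (c + d) = B8 a c + B8 a d + B8 b c + B8 b d := by
  simp only [B8, Pi.add_apply]
  ring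

theorem PsiZero.sym {y : GG F} (h : PsiZero y) {x x' : O F} (hx : Sing x) (hx' : Sing x') (hB : B8 x x' = 0) :
    B8 x (ac y x') + B8 x' (ac y x) = 0 := by
  have h1 := h (x + x') (sing_add hx hx' hB)
  rw [ac_add, B8_add_add, h x hx, h x' hx'] at h1
  linear_combination h1

/-- An element of the algebra group is determined on six vectors. -/
theorem gg_ext6 {g h : GG F} (h1 : ac g e1 = ac h e1) (h2 : ac g e2 = ac h e2) (h3 : ac g e3 = ac h e3)
    (h4 : ac g f1 = ac h f1) (h5 : ac g f2 = ac h f2) (h6 : ac g f3 = ac h f3) : g = h := by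
  apply gg_ext
  intro x
  have h0 : ac g e0 = ac h e0 := by rw [← mul_e1_f1, ac_hom, ac_hom, h1, h4]
  have h7 : ac g e7 = ac h e7 := by rw [← mul_f1_e1, ac_hom, ac_hom, h1, h4]
  conv_lhs => rw [o_decomp x]
  conv_rhs => rw [o_decomp x]
  simp only [ac_add, ac_smul, h0, h1, h2, h3, h4, h5, h6, h7]

/-- The normal form of a long root element. -/
noncomputable def rootA (l p : F) : Matrix (Fin 3) (Fin 3) F := !![2, -l, 0; l⁻¹, 0, 0; -p, l * p, 1]

theorem rootA_det {l : F} (hl : l ≠ 0) (p : F) : (rootA l p).det = 1 := by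
  simp [rootA, Matrix.det_fin_three, hl]

/-- The normal form as a special matrix. -/
noncomputable def rootS (l p : F) (hl : l ≠ 0) : Matrix.SpecialLinearGroup (Fin 3) F := ⟨rootA l p, rootA_det hl p⟩

theorem ac_rootS {l p : F} (hl : l ≠ 0) :
    ac (bkE (rootS l p hl)) e1 = ![0, 2, l⁻¹, -p, 0, 0, 0, 0] ∧
    ac (bkE (rootS l p hl)) e2 = ![0, -l, 0, l * p, 0, 0, 0, 0] ∧
    ac (bkE (rootS l p hl)) e3 = e3 ∧
    ac (bkE (rootS l p hl)) f1 = l • f2 ∧
    ac (bkE (rootS l p hl)) f2 = ![0, 0, 0, 0, -l⁻¹, 2, 0, 0] ∧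
    ac (bkE (rootS l p hl)) f3 = ![0, 0, 0, 0, p, -(l * p), 1, 0] := by
  refine ⟨?_, ?_, ?_, ?_, ?_, ?_⟩ <;> rw [ac_bkE] <;> show bk (rootA l p) (cofM (rootA l p)) _ = _ <;>
    apply o_ext <;>
    simp [bk, sc, uv, wv, rootA, cofM, cross3, Matrix.col, Matrix.mulVec, dotProduct, Fin.sum_univ_three,
      e1, e2, e3, f1, f2, f3, hl] <;> ring

set_option maxHeartbeats 4000000 in
/-- The algebra behind the normal form. -/
theorem root_algebra {l : F} (hl : l ≠ 0) {g2 g3 c1 c2 c3 : O F} (sg2 : Sing g2) (sg3 : Sing g3)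
    (hc1 : - c1 = zornMul g2 g3) (hc2 : c2 = zornMul (l • f2) g3) (hc3 : - c3 = zornMul (l • f2) g2)
    (s1 : B8 f1 g2 + B8 f2 (l • f2) = 0) (s2 : B8 f2 g2 = 0) (s3 : B8 f1 c3 + B8 e3 (l • f2) = 0)
    (s4 : B8 f1 g3 + B8 f3 (l • f2) = 0) (s5 : B8 f3 g3 = 0) (s6 : B8 e1 g2 + B8 f2 c1 = 0)
    (s7 : B8 f3 c1 + B8 e1 g3 = 0) (s8 : B8 (e1 + e3) (g3 + - (l • f2)) + B8 (f3 + - f1) (c1 + c3) = 0)
    (h1 : B8 (l • f2) g3 = 0) (h2 : B8 g3 c3 = -1) (h3 : B8 g2 g3 = 0) :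
    ∃ p : F, c1 = ![0, 2, l⁻¹, -p, 0, 0, 0, 0] ∧ c2 = ![0, -l, 0, l * p, 0, 0, 0, 0] ∧ c3 = e3 ∧
      g2 = ![0, 0, 0, 0, -l⁻¹, 2, 0, 0] ∧ g3 = ![0, 0, 0, 0, p, -(l * p), 1, 0] := by
  have tg2 := sg2.1
  have ng2 := sg2.2
  have tg3 := sg3.1
  have ng3 := sg3.2
  simp only [T8, N8] at tg2 ng2 tg3 ng3
  have a1 : g2 1 = 0 := by simpa [B8, f1, f2] using s1
  have a2 : g2 2 = 0 := by simpa [B8, f2] using s2
  have k0 := congrFun hc3 0
  have k1 := congrFun hc3 1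
  have k2 := congrFun hc3 2
  have k3 := congrFun hc3 3
  have k4 := congrFun hc3 4
  have k5 := congrFun hc3 5
  have k6 := congrFun hc3 6
  have k7 := congrFun hc3 7
  simp [zm, f2] at k0 k1 k2 k3 k4 k5 k6 k7
  have s3' : c3 1 = 0 := by simpa [B8, f1, f2, e3] using s3
  have a6 : g2 6 = 0 := by
    rw [s3'] at k1
    have := (mul_eq_zero.1 k1.symm).resolve_left hl
    exact this
  have a0 : g2 0 = 0 := by
    rw [a1, a2, a6] at ng2
    have : g2 0 * g2 0 = 0 := by linear_combination g2 0 * tg2 - ng2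
    exact mul_self_eq_zero.1 this
  have a7 : g2 7 = 0 := by
    rw [a0] at tg2
    simpa using tg2
  have b2 : g3 2 = 0 := by
    have : l * g3 2 = 0 := by simpa [B8, f2, hl] using h1
    exact (mul_eq_zero.1 this).resolve_left hl
  have b1 : g3 1 = 0 := by simpa [B8, f1, f2, f3] using s4
  have b3 : g3 3 = 0 := by simpa [B8, f3] using s5
  have b0 : g3 0 = 0 := by
    rw [b1, b2, b3] at ng3
    have : g3 0 * g3 0 = 0 := by linear_combination g3 0 * tg3 - ng3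
    exact mul_self_eq_zero.1 this
  have b7 : g3 7 = 0 := by
    rw [b0] at tg3
    simpa using tg3
  have k3' : c3 3 = - (l * g2 4) := by linear_combination -k3
  have k5' : c3 5 = 0 := by rw [a0] at k5; simpa using k5
  have k7' : c3 7 = 0 := by rw [a2] at k7; simpa using k7
  have d0 : g3 6 * (l * g2 4) = -1 := by
    simp only [B8, b0, b1, b2, b3, b7, k0, s3', k2, k4, k5', k6, k7', k3'] at h2
    linear_combination h2
  have d1 : g3 6 ≠ 0 := by
    intro h0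
    rw [h0] at d0
    have : (1 : F) = 0 := by linear_combination d0
    exact one_ne_zero this
  have d2 : g2 4 ≠ 0 := by
    intro h0
    rw [h0] at d0
    have : (1 : F) = 0 := by linear_combination d0
    exact one_ne_zero this
  have a3 : g2 3 = 0 := by
    simp only [B8, a0, a1, a2, a6, a7, b0, b1, b2, b3, b7] at h3
    have : g2 3 * g3 6 = 0 := by linear_combination -h3
    exact (mul_eq_zero.1 this).resolve_right d1
  have m0 := congrFun hc1 0
  have m1 := congrFun hc1 1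
  have m2 := congrFun hc1 2
  have m3 := congrFun hc1 3
  have m4 := congrFun hc1 4
  have m5 := congrFun hc1 5
  have m6 := congrFun hc1 6
  have m7 := congrFun hc1 7
  simp [zm, a0, a1, a2, a3, a6, a7, b0, b1, b2, b3, b7] at m0 m1 m2 m3 m4 m5 m6 m7
  have n0 := congrFun hc2 0
  have n1 := congrFun hc2 1
  have n2 := congrFun hc2 2
  have n3 := congrFun hc2 3
  have n4 := congrFun hc2 4
  have n5 := congrFun hc2 5
  have n6 := congrFun hc2 6
  have n7 := congrFun hc2 7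
  simp [zm, f2, b0, b1, b2, b3, b7] at n0 n1 n2 n3 n4 n5 n6 n7
  have s6' : - g2 4 - c1 2 = 0 := by
    simp [B8, e1, f2] at s6
    linear_combination s6
  have s7' : - c1 3 - g3 4 = 0 := by
    simp [B8, e1, f3] at s7
    linear_combination s7
  have d3 : g3 6 = 1 := by
    have : g2 4 * (g3 6 - 1) = 0 := by linear_combination s6' - m2
    have := (mul_eq_zero.1 this).resolve_left d2
    linear_combination this
  have s8' : - g3 4 - g3 6 - (c1 3 + c3 3) + (c1 1 + c3 1) = 0 := by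
    simp [B8, e1, e3, f1, f2, f3, hl, b0, b1, b2, b3, b7] at s8
    linear_combination s8
  have d5 : l * g2 4 = -1 := by
    rw [d3] at d0
    linear_combination d0
  have d4 : g2 5 = 2 := by
    rw [s3', k3', m1, d3] at s8'
    linear_combination s8' - s7' - d5
  have d6 : g2 4 = - l⁻¹ := by
    field_simp
    linear_combination d5
  have d7 : g3 5 = -(l * g3 4) := by
    have e1' : g2 4 * g3 5 = g3 4 := by
      rw [d4] at m3
      linear_combination m3 - s7'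
    linear_combination (-l) * e1' + g3 5 * d5
  refine ⟨g3 4, ?_, ?_, ?_, ?_, ?_⟩
  · apply o_ext <;> simp [m0, m4, m5, m6, m7]
    · rw [m1, d4, d3, mul_one]
    · rw [d6, d3] at m2
      linear_combination -m2
    · linear_combination -s7'
  · apply o_ext <;> simp [n0, n1, n2, n3, n4, n5, n6, n7, d3]
  · apply o_ext <;> simp [e3, k0, s3', k2, k4, k5', k6, k7', k3', d5]
  · apply o_ext <;> simp [a0, a1, a2, a3, a6, a7, d4, d6]
  · apply o_ext <;> simp [b0, b1, b2, b3, b7, d3, d7]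

set_option maxHeartbeats 2000000 in
/-- Normal form of an element with vanishing form. -/
theorem root_normal {y : GG F} (h : PsiZero y) {l : F} (hl : l ≠ 0) (hr : ac y f1 = l • f2) :
    ∃ p : F, y = bkE (rootS l p hl) := by
  have hc1 := ac_hom y f2 f3
  have hc2 := ac_hom y f1 f3
  have hc3 := ac_hom y f1 f2
  rw [mul_f2_f3, ac_neg] at hc1
  rw [mul_f1_f3, hr] at hc2
  rw [mul_f1_f2, ac_neg, hr] at hc3
  have s1 := h.sym sing_f1 sing_f2 (by simp [B8, f1, f2])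
  have s2 := h f2 sing_f2
  have s3 := h.sym sing_f1 sing_e3 (by simp [B8, f1, e3])
  have s4 := h.sym sing_f1 sing_f3 (by simp [B8, f1, f3])
  have s5 := h f3 sing_f3
  have s6 := h.sym sing_e1 sing_f2 (by simp [B8, e1, f2])
  have s7 := h.sym sing_f3 sing_e1 (by simp [B8, e1, f3])
  have s8 := h.sym (sing_add sing_e1 sing_e3 (by simp [B8, e1, e3]))
    (sing_add sing_f3 (x := f3) (y := - f1) ⟨by simp [T8, f1], by simp [N8, f1]⟩ (by simp [B8, f1, f3]))
    (by simp [B8, e1, e3, f1, f3])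
  rw [ac_add, ac_add, ac_neg, hr] at s8
  rw [hr] at s1 s3 s4
  have h1 : B8 (l • f2) (ac y f3) = 0 := by
    have := ac_B8 y f1 f3
    rw [hr] at this
    rw [this]
    simp [B8, f1, f3]
  have h2 : B8 (ac y f3) (ac y e3) = -1 := by
    rw [ac_B8]
    simp [B8, f3, e3]
  have h3 : B8 (ac y f2) (ac y f3) = 0 := by
    rw [ac_B8]
    simp [B8, f2, f3]
  obtain ⟨p, r1, r2, r3, r4, r5⟩ := root_algebra hl (sing_ac y sing_f2) (sing_ac y sing_f3) hc1 hc2 hc3
    s1 s2 s3 s4 s5 s6 s7 s8 h1 h2 h3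
  obtain ⟨t1, t2, t3, t4, t5, t6⟩ := ac_rootS (p := p) hl
  refine ⟨p, gg_ext6 ?_ ?_ ?_ ?_ ?_ ?_⟩
  · rw [r1, t1]
  · rw [r2, t2]
  · rw [r3, t3]
  · rw [hr, t4]
  · rw [r4, t5]
  · rw [r5, t6]

theorem bkE_coords (B : Matrix.SpecialLinearGroup (Fin 3) F) :
    (ac (bkE B) f1) 4 = (B : Matrix (Fin 3) (Fin 3) F) 1 1 * (B : Matrix (Fin 3) (Fin 3) F) 2 2 -
      (B : Matrix (Fin 3) (Fin 3) F) 1 2 * (B : Matrix (Fin 3) (Fin 3) F) 2 1 ∧
    Nblk (bkE B) = !![(B : Matrix (Fin 3) (Fin 3) F) 1 1, (B : Matrix (Fin 3) (Fin 3) F) 1 2;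
      (B : Matrix (Fin 3) (Fin 3) F) 2 1, (B : Matrix (Fin 3) (Fin 3) F) 2 2] := by
  set A := (B : Matrix (Fin 3) (Fin 3) F) with hA
  have a4 : (ac (bkE B) f1) 4 = A 1 1 * A 2 2 - A 1 2 * A 2 1 := by
    rw [ac_bkE]
    simp [bk, sc, uv, wv, cofM, cross3, Matrix.col, Matrix.mulVec, dotProduct, Fin.sum_univ_three, f1, ← hA]
    ring
  have a2 : (ac (bkE B) f1) 2 = 0 := by
    rw [ac_bkE]
    simp [bk, sc, uv, wv, f1, Matrix.mulVec, dotProduct, Fin.sum_univ_three, ← hA]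
  have a3 : (ac (bkE B) f1) 3 = 0 := by
    rw [ac_bkE]
    simp [bk, sc, uv, wv, f1, Matrix.mulVec, dotProduct, Fin.sum_univ_three, ← hA]
  have b2 : (ac (bkE B) e2) 2 = A 1 1 := by
    rw [ac_bkE]
    simp [bk, sc, uv, wv, e2, Matrix.mulVec, dotProduct, Fin.sum_univ_three, ← hA]
  have b3 : (ac (bkE B) e2) 3 = A 2 1 := by
    rw [ac_bkE]
    simp [bk, sc, uv, wv, e2, Matrix.mulVec, dotProduct, Fin.sum_univ_three, ← hA]
  have c2 : (ac (bkE B) e3) 2 = A 1 2 := by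
    rw [ac_bkE]
    simp [bk, sc, uv, wv, e3, Matrix.mulVec, dotProduct, Fin.sum_univ_three, ← hA]
  have c3 : (ac (bkE B) e3) 3 = A 2 2 := by
    rw [ac_bkE]
    simp [bk, sc, uv, wv, e3, Matrix.mulVec, dotProduct, Fin.sum_univ_three, ← hA]
  refine ⟨a4, ?_⟩
  ext i j
  fin_cases i <;> fin_cases j
  · show (ac (bkE B) e2) 2 - (ac (bkE B) f1) 2 * (ac (bkE B) e2) 4 / (ac (bkE B) f1) 4 = A 1 1
    rw [a2, b2]
    simp
  · show (ac (bkE B) e3) 2 - (ac (bkE B) f1) 2 * (ac (bkE B) e3) 4 / (ac (bkE B) f1) 4 = A 1 2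
    rw [a2, c2]
    simp
  · show (ac (bkE B) e2) 3 - (ac (bkE B) f1) 3 * (ac (bkE B) e2) 4 / (ac (bkE B) f1) 4 = A 2 1
    rw [a3, b3]
    simp
  · show (ac (bkE B) e3) 3 - (ac (bkE B) f1) 3 * (ac (bkE B) e3) 4 / (ac (bkE B) f1) 4 = A 2 2
    rw [a3, c3]
    simp

/-- A conjugate of the normal form with a good Levi part. -/
theorem good_of_root {l p d : F} (hl : l ≠ 0) (hd : d ≠ 0) (hd1 : d ≠ 1) :
    ∃ w : GG F, (ac (w * bkE (rootS l p hl) * w⁻¹) f1) 4 = d * d ∧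
      GoodN (d⁻¹ • Nblk (w * bkE (rootS l p hl) * w⁻¹)) := by
  let Gm : Matrix (Fin 3) (Fin 3) F :=
    !![1 + p, 0, 1; 1, 0, 0; ((1 - d * d) * p - 1) / l, 1, (1 - d * d) / l]
  let Bm : Matrix (Fin 3) (Fin 3) F :=
    !![2 - d * d, d * d - 1, -l; 1 - d * d, d * d, -l; 0, 0, 1]
  have hG : Gm.det = 1 := by
    simp [Gm, Matrix.det_fin_three]
  have hB : Bm.det = 1 := by
    simp [Bm, Matrix.det_fin_three]
    ring
  let G : Matrix.SpecialLinearGroup (Fin 3) F := ⟨Gm, hG⟩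
  let B : Matrix.SpecialLinearGroup (Fin 3) F := ⟨Bm, hB⟩
  have hrel : G * rootS l p hl * G⁻¹ = B := by
    rw [mul_inv_eq_iff_eq_mul]
    apply Subtype.ext
    show Gm * rootA l p = Bm * Gm
    ext i j
    fin_cases i <;> fin_cases j <;>
      simp [Gm, Bm, rootA, Matrix.mul_apply, Fin.sum_univ_three] <;> field_simp <;> ring
  refine ⟨bkE G, ?_⟩
  have e : bkE G * bkE (rootS l p hl) * (bkE G)⁻¹ = bkE B := by
    rw [← hrel, map_mul, map_mul, map_inv]
  rw [e]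
  obtain ⟨h1, h2⟩ := bkE_coords B
  have hB' : (B : Matrix (Fin 3) (Fin 3) F) = Bm := rfl
  rw [hB'] at h1 h2
  refine ⟨?_, ?_⟩
  · rw [h1]
    simp [Bm]
  · rw [h2]
    refine Or.inr ⟨?_, ?_⟩
    · intro hs
      have := hs.1
      simp [Bm, hd, hl] at this
    · rw [Matrix.trace_fin_two]
      simp [Bm]
      intro h3
      apply hd1
      have : (d - 1) * (d - 1) = 0 := by
        field_simp at h3
        linear_combination h3
      have := mul_self_eq_zero.1 this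
      linear_combination this

theorem mul_f1_zero {r : O F} (h0 : r 0 = 0) (h1 : r 1 = 0) (h5 : r 5 = 0) (h6 : r 6 = 0) : zornMul f1 r = 0 := by
  apply o_ext <;> simp [zm, f1, h5, h6, h0, h1]

/-- Elements of the second kind. -/
theorem good_of_psi {y : GG F} (h : PsiZero y) {d : F} (hd : d ≠ 0) (hd1 : d ≠ 1)
    (hne : zornMul f1 (ac y f1) ≠ 0) :
    ∃ g : GG F, (ac (g * y * g⁻¹) f1) 4 = d * d ∧ GoodN (d⁻¹ • Nblk (g * y * g⁻¹)) := by
  have hr1 : (ac y f1) 1 = 0 := by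
    have := h f1 sing_f1
    rw [B8_f1] at this
    linear_combination -this
  have hrS : Sing (ac y f1) := sing_ac y sing_f1
  -- a nonzero fifth coordinate
  obtain ⟨g₀, hg₀, hg₀5⟩ : ∃ g₀ : GG F, ac g₀ f1 = f1 ∧ (ac g₀ (ac y f1)) 5 ≠ 0 := by
    by_cases h5 : (ac y f1) 5 = 0
    · have h6 : (ac y f1) 6 ≠ 0 := by
        intro h6
        apply hne
        have h0 : (ac y f1) 0 = 0 := by
          have t := hrS.1
          have n := hrS.2
          simp only [T8, N8, hr1, h5, h6] at t n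
          have : (ac y f1) 0 * (ac y f1) 0 = 0 := by linear_combination (ac y f1) 0 * t - n
          exact mul_self_eq_zero.1 this
        exact mul_f1_zero h0 hr1 h5 h6
      refine ⟨trE 2 1 (by decide) (-1), ?_, ?_⟩
      · rw [ac_trE]
        apply o_ext <;> simp [trF, f1]
      · rw [ac_trE]
        simpa [trF, h5] using h6
    · exact ⟨1, ac_one _, by rwa [ac_one]⟩
  set r₀ := ac g₀ (ac y f1) with hr₀
  set g₁ := trE 1 2 (by decide) (r₀ 6 / r₀ 5) with hg₁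
  have hg₁f : ac g₁ f1 = f1 := by
    rw [hg₁, ac_trE]
    apply o_ext <;> simp [trF, f1]
  set r := ac g₁ r₀ with hr
  have hr5 : r 5 = r₀ 5 := by
    rw [hr, hg₁, ac_trE]
    simp [trF]
  have hr6 : r 6 = 0 := by
    rw [hr, hg₁, ac_trE]
    simp [trF]
    field_simp
    ring
  have hrS' : Sing r := sing_ac _ (sing_ac _ hrS)
  have hrB : B8 f1 r = 0 := by
    have e1' : B8 f1 r = B8 f1 (ac y f1) := by
      calc B8 f1 r = B8 (ac g₁ f1) (ac g₁ r₀) := by rw [hg₁f]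
        _ = B8 f1 r₀ := ac_B8 _ _ _
        _ = B8 (ac g₀ f1) (ac g₀ (ac y f1)) := by rw [hg₀]
        _ = _ := ac_B8 _ _ _
    rw [e1', B8_f1, hr1, neg_zero]
  have hr1' : r 1 = 0 := by
    rw [B8_f1] at hrB
    linear_combination -hrB
  set l := r 5 with hl
  have hl0 : l ≠ 0 := by rw [hr5]; exact hg₀5
  -- the lower radical element
  set w₁ := - r 0 / l with hw₁
  set t := - r 3 / l with ht
  set v := vE (2 * t * w₁ - r 4 / l) 0 t w₁ 0 with hv
  have hvf : ac v f2 = l⁻¹ • r := by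
    have t₁ := hrS'.1
    have n₁ := hrS'.2
    simp only [T8, N8, hr1', hr6, ← hl] at t₁ n₁
    have h7 : r 7 = - r 0 := by linear_combination t₁
    rw [h7] at n₁
    have h2 : r 2 = - (r 0 * r 0) / l := by
      field_simp
      linear_combination -n₁
    rw [hv, vE_f2]
    apply o_ext
    · simp [hw₁]
      field_simp
    · simp [hr1']
    · simp [hw₁, h2]
      field_simp
    · simp [ht]
      field_simp
    · simp
      field_simp
    · simp [← hl, hl0]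
    · simp [hr6]
    · simp [hw₁, h7]
      field_simp
  have hvm : v ∈ QL F := vE_mem _ _ _ _ _
  set y₁ := g₁ * g₀ * y * (g₁ * g₀)⁻¹ with hy₁
  have hy₁f : ac y₁ f1 = r := by
    have e2' : ac (g₁ * g₀)⁻¹ f1 = f1 := by
      apply ac_inv_eq
      rw [ac_mul, hg₀, hg₁f]
    rw [hy₁, ac_mul, ac_mul, e2', ac_mul, hr, hr₀]
  set y₂ := v⁻¹ * y₁ * v with hy₂
  have hy₂f : ac y₂ f1 = l • f2 := by
    rw [hy₂, ac_mul, ac_mul, hvm.1, hy₁f]
    have e3' : r = l • ac v f2 := by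
      rw [hvf, smul_smul, mul_inv_cancel₀ hl0, one_smul]
    rw [e3', ac_smul, ac_inv_ac]
  have hψ₂ : PsiZero y₂ := by
    have := (h.conj (g₁ * g₀)).conj v⁻¹
    rwa [inv_inv] at this
  obtain ⟨p, hp⟩ := root_normal hψ₂ hl0 hy₂f
  obtain ⟨w, hw1, hw2⟩ := good_of_root (p := p) hl0 hd hd1
  rw [← hp] at hw1 hw2
  refine ⟨w * v⁻¹ * (g₁ * g₀), ?_⟩
  have e4 : w * v⁻¹ * (g₁ * g₀) * y * (w * v⁻¹ * (g₁ * g₀))⁻¹ = w * y₂ * w⁻¹ := by
    rw [hy₂, hy₁]
    group
  rw [e4]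
  exact ⟨hw1, hw2⟩

/-- Elements of the first kind. -/
theorem good_of_nonpsi [Fintype F] {y : GG F} {b : O F} (hb : Sing b) (hne : B8 b (ac y b) ≠ 0) {d : F} (hd : d ≠ 0)
    (hd1 : d ≠ 1) :
    ∃ g : GG F, (ac (g * y * g⁻¹) f1) 4 = d * d ∧ GoodN (d⁻¹ • Nblk (g * y * g⁻¹)) := by
  have hb0 : b ≠ 0 := by
    rintro rfl
    apply hne
    simp [B8]
  obtain ⟨g, hg⟩ := exists_move_f1 hb hb0
  set r := ac g (ac y b) with hr
  have hrS : Sing r := sing_ac _ (sing_ac _ hb)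
  have hr1 : r 1 ≠ 0 := by
    intro h0
    apply hne
    rw [← ac_B8 g, hg, ← hr, B8_f1, h0, neg_zero]
  have ht : T8 (( r 1)⁻¹ • r) = 0 := by rw [T8_smul', hrS.1, mul_zero]
  have hn : N8 ((r 1)⁻¹ • r) = 0 := by rw [N8_smul', hrS.2, mul_zero]
  obtain ⟨v₀, hv₀, hv₀e⟩ := exists_QL ht hn (by simp [hr1])
  set y₁ := v₀⁻¹ * (g * y * g⁻¹) * v₀ with hy₁
  have hy₁f : ac y₁ f1 = r 1 • e1 := by
    have e1' : ac g⁻¹ f1 = b := ac_inv_eq hg
    rw [hy₁, ac_mul, ac_mul, hv₀.1, ac_mul, ac_mul, e1', ← hr]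
    have e2' : r = r 1 • ac v₀ e1 := by
      rw [hv₀e, smul_smul, mul_inv_cancel₀ hr1, one_smul]
    conv_lhs => rw [e2']
    rw [ac_smul, ac_inv_ac]
  obtain ⟨v, hv1, hv2⟩ := good_of_opp hr1 hd hy₁f ⟨d, hd, hd1⟩
  refine ⟨v⁻¹ * v₀⁻¹ * g, ?_⟩
  have e4 : v⁻¹ * v₀⁻¹ * g * y * (v⁻¹ * v₀⁻¹ * g)⁻¹ = v⁻¹ * y₁ * v := by
    rw [hy₁]
    group
  rw [e4]
  exact ⟨hv1, hv2⟩

/-- Every nontrivial element has a conjugate with good Levi part. -/
theorem exists_good_conj [Fintype F] {y : GG F} (hy : y ≠ 1) {d : F} (hd : d ≠ 0) (hd1 : d ≠ 1) :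
    ∃ g : GG F, (ac (g * y * g⁻¹) f1) 4 = d * d ∧ GoodN (d⁻¹ • Nblk (g * y * g⁻¹)) := by
  by_cases hψ : PsiZero y
  · obtain ⟨b, hb, hbne⟩ := exists_not_null hy
    have hb0 : b ≠ 0 := by
      rintro rfl
      apply hbne
      apply o_ext <;> simp [zm]
    obtain ⟨g, hg⟩ := exists_move_f1 hb hb0
    have hne : zornMul f1 (ac (g * y * g⁻¹) f1) ≠ 0 := by
      have e1' : ac g⁻¹ f1 = b := ac_inv_eq hg
      rw [ac_mul, ac_mul, e1', ← hg, ← ac_hom]
      intro h0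
      apply hbne
      apply ac_inj g
      rw [h0, ac_zero]
    obtain ⟨g', h1, h2⟩ := good_of_psi (hψ.conj g) hd hd1 hne
    refine ⟨g' * g, ?_⟩
    have e4 : g' * g * y * (g' * g)⁻¹ = g' * (g * y * g⁻¹) * g'⁻¹ := by group
    rw [e4]
    exact ⟨h1, h2⟩
  · unfold PsiZero at hψ
    push Not at hψ
    obtain ⟨b, hb, hne⟩ := hψ
    exact good_of_nonpsi hb hne hd hd1

/-- The main theorem in the algebra model. -/
theorem exists_factor [Fintype F] (M : GL (Fin 2) F) (hτ : (M : M2 F).trace ≠ 0) (hd1 : (M : M2 F).det ≠ 1)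
    (hnr : ∀ r : F, r * r - (M : M2 F).trace * r + (M : M2 F).det ≠ 0) {y : GG F} (hy : y ≠ 1) :
    ∃ a b : GG F, y = (a * lev M * a⁻¹) * (b * lev M * b⁻¹) := by
  obtain ⟨g, h1, h2⟩ := exists_good_conj hy (det_ne M) hd1
  obtain ⟨a, b, hab⟩ := factor_of_good M hτ hd1 hnr _ h1 h2
  refine ⟨g⁻¹ * a, g⁻¹ * b, ?_⟩
  have e : y = g⁻¹ * (g * y * g⁻¹) * g := by group
  rw [e, hab]
  group

end Cfsg.Agent.Lib.OreG2
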