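import Mathlib
import Cfsg.Agent.Lib.OreG2.Root
import Cfsg.Agent.Lib.G2Oct.Lift2
import Cfsg.Agent.Lib.Classical.Lin.G2Grp
import Cfsg.Agent.Lib.Classical.Lin.Transvections

/-!
# The Chevalley group of type `G₂` is the full automorphism group of the split octonions
-/

set_option autoImplicit false
set_option linter.unusedSectionVars false
set_option linter.unusedSimpArgs false
set_option linter.unusedVariables false
set_option linter.unnecessarySeqFocus false

namespace Cfsg.Agent.Lib.OreG2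

open Cfsg.Lie Matrix Cfsg.Agent.Lib.G2Oct.Zorn Cfsg.Agent.Lib.G2Oct.Stab Cfsg.Agent.Lib.Linalg.GL2Conj
open Cfsg.Agent.Lib.G2Oct.Lift Cfsg.Agent.Lib.G2Oct.Lift2 Cfsg.Agent.Lib.ChevIso.Act
open Cfsg.Agent.Lib.ChevBN.Elem (X coe_X)

variable {F : Type*} [Field F]

/-- The elements of the algebra group coming from the Chevalley group. -/
def LiftS (F : Type*) [Field F] : Subgroup (GG F) where
  carrier := {y | ∃ g : GL chevG2.Idx F, g ∈ chevG2.group F ∧
    Rel (D := chevG2) (Pm (F := F)) (g : Matrix chevG2.Idx chevG2.Idx F) ((y : GL (Fin 8) F) : Matrix (Fin 8) (Fin 8) F)}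
  mul_mem' := by
    rintro a b ⟨g, hg, hga⟩ ⟨g', hg', hgb⟩
    exact ⟨g * g', mul_mem hg hg', hga.mul hgb⟩
  one_mem' := ⟨1, one_mem _, Rel.one _⟩
  inv_mem' := by
    rintro a ⟨g, hg, hga⟩
    refine ⟨g⁻¹, inv_mem hg, hga.inv ?_ ?_ ?_⟩
    · rw [← Units.val_mul, mul_inv_cancel, Units.val_one]
    · show (((a⁻¹ : GG F) : GL (Fin 8) F) : Matrix (Fin 8) (Fin 8) F) * _ = 1
      rw [← Units.val_mul, ← Subgroup.coe_mul, inv_mul_cancel]
      rfl
    · show _ * (((a⁻¹ : GG F) : GL (Fin 8) F) : Matrix (Fin 8) (Fin 8) F) = 1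
      rw [← Units.val_mul, ← Subgroup.coe_mul, mul_inv_cancel]
      rfl

/-- Root elements lift. -/
theorem root_lift {r : ℕ} (hr : r < chevG2.nroots) (t : F) {y : GG F}
    (hy : ∀ x, Ym r t *ᵥ x = ac y x) : y ∈ LiftS F := by
  have hR := (Cfsg.Agent.Lib.Classical.Lin.G2Grp.hR (F := F)).toAddRel
  refine ⟨X hR r t, ?_, ?_⟩
  · rw [Cfsg.Agent.Lib.ChevBN.Elem.group_eq hR]
    exact Cfsg.Agent.Lib.ChevBN.Elem.X_mem_gen hR (Ψ := {r | r < chevG2.nroots}) hr t
  · rw [coe_X, Cfsg.Agent.Lib.Chevalley.Reflect.x_eq_xMat chevG2 hr, coe_eq_of_mulVec (M := Ym r t) hy]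
    exact rel_root hr t

theorem lift_tr21 (t : F) : trE 2 1 (by decide) t ∈ LiftS F :=
  root_lift (r := 0) (by decide) t (fun x => by rw [ym0, ac_trE])
theorem lift_tr20 (t : F) : trE 2 0 (by decide) t ∈ LiftS F :=
  root_lift (r := 1) (by decide) (-t) (fun x => by rw [ym1, ac_trE, neg_neg])
theorem lift_tr01 (t : F) : trE 0 1 (by decide) t ∈ LiftS F :=
  root_lift (r := 5) (by decide) (-t) (fun x => by rw [ym5, ac_trE, neg_neg])
theorem lift_tr10 (t : F) : trE 1 0 (by decide) t ∈ LiftS F :=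
  root_lift (r := 6) (by decide) (-t) (fun x => by rw [ym6, ac_trE, neg_neg])
theorem lift_tr02 (t : F) : trE 0 2 (by decide) t ∈ LiftS F :=
  root_lift (r := 10) (by decide) (-t) (fun x => by rw [ym10, ac_trE, neg_neg])
theorem lift_tr12 (t : F) : trE 1 2 (by decide) t ∈ LiftS F :=
  root_lift (r := 11) (by decide) t (fun x => by rw [ym11, ac_trE])

theorem fin3_pairs : ∀ i j : Fin 3, i ≠ j → (i = 0 ∧ j = 1) ∨ (i = 0 ∧ j = 2) ∨ (i = 1 ∧ j = 0) ∨ (i = 1 ∧ j = 2) ∨
    (i = 2 ∧ j = 0) ∨ (i = 2 ∧ j = 1) := by decide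

theorem lift_tr (i j : Fin 3) (hij : i ≠ j) (t : F) : trE i j hij t ∈ LiftS F := by
  rcases fin3_pairs i j hij with ⟨rfl, rfl⟩ | ⟨rfl, rfl⟩ | ⟨rfl, rfl⟩ | ⟨rfl, rfl⟩ | ⟨rfl, rfl⟩ | ⟨rfl, rfl⟩
  · exact lift_tr01 t
  · exact lift_tr02 t
  · exact lift_tr10 t
  · exact lift_tr12 t
  · exact lift_tr20 t
  · exact lift_tr21 t

set_option maxHeartbeats 2000000 in
theorem bkE_transvection (i j : Fin 3) (hij : i ≠ j) (a : F) :
    bkE (Matrix.SpecialLinearGroup.transvection hij a) = trE i j hij a := by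
  apply gg_ext
  intro x
  rw [ac_bkE, ac_trE, Matrix.SpecialLinearGroup.transvection_coe]
  rcases fin3_pairs i j hij with ⟨rfl, rfl⟩ | ⟨rfl, rfl⟩ | ⟨rfl, rfl⟩ | ⟨rfl, rfl⟩ | ⟨rfl, rfl⟩ | ⟨rfl, rfl⟩ <;>
    (apply o_ext <;> simp [bk, sc, uv, wv, trF, zA, zB, cofM, cross3, Matrix.col, Matrix.mulVec, dotProduct,
        Fin.sum_univ_three, Matrix.transvection, Matrix.one_apply, Matrix.single_apply] <;> ring)

theorem lift_bk (A : Matrix.SpecialLinearGroup (Fin 3) F) : bkE A ∈ LiftS F := by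
  refine Cfsg.Agent.Lib.Classical.Lin.Transvections.transvection_induction (F := F)
    (fun A => bkE A ∈ LiftS F) ?_ ?_ A
  · intro i j hij a
    rw [bkE_transvection]
    exact lift_tr i j hij a
  · intro A B hA hB
    rw [map_mul]
    exact mul_mem hA hB

theorem lift_psi0 (a : F) : psiE ![a, 0, 0] ∈ LiftS F := by
  refine root_lift (r := 7) (by decide) a (fun x => ?_)
  rw [ym7, ac_psiE]
  congr 1
  ext i
  fin_cases i <;> simp

theorem lift_psi1 (a : F) : psiE ![0, a, 0] ∈ LiftS F := by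
  refine root_lift (r := 8) (by decide) (-a) (fun x => ?_)
  rw [ym8, ac_psiE]
  congr 1
  ext i
  fin_cases i <;> simp

theorem lift_psi2 (a : F) : psiE ![0, 0, a] ∈ LiftS F := by
  refine root_lift (r := 2) (by decide) (-a) (fun x => ?_)
  rw [ym2, ac_psiE]
  congr 1
  ext i
  fin_cases i <;> simp

theorem lift_phi0 (a : F) : phiE ![a, 0, 0] ∈ LiftS F := by
  refine root_lift (r := 4) (by decide) a (fun x => ?_)
  rw [ym4, ac_phiE]
  congr 1
  ext i
  fin_cases i <;> simp

theorem lift_phi1 (a : F) : phiE ![0, a, 0] ∈ LiftS F := by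
  refine root_lift (r := 3) (by decide) (-a) (fun x => ?_)
  rw [ym3, ac_phiE]
  congr 1
  ext i
  fin_cases i <;> simp

theorem lift_phi2 (a : F) : phiE ![0, 0, a] ∈ LiftS F := by
  refine root_lift (r := 9) (by decide) (-a) (fun x => ?_)
  rw [ym9, ac_phiE]
  congr 1
  ext i
  fin_cases i <;> simp

/-- Conjugating by a long root element. -/
theorem psi_conj (i j : Fin 3) (hij : i ≠ j) (t : F) (w : Fin 3 → F) :
    trE i j hij t * psiE w * (trE i j hij t)⁻¹ = psiE (Function.update w i (w i + t * w j)) := by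
  rw [mul_inv_eq_iff_eq_mul]
  apply gg_ext
  intro x
  simp only [ac_mul, ac_psiE, ac_trE]
  rcases fin3_pairs i j hij with ⟨rfl, rfl⟩ | ⟨rfl, rfl⟩ | ⟨rfl, rfl⟩ | ⟨rfl, rfl⟩ | ⟨rfl, rfl⟩ | ⟨rfl, rfl⟩ <;>
    (apply o_ext <;> simp [trF, psiF, zA, zB, Function.update] <;> first | ring1 | (ring_nf; simp))

theorem phi_conj (i j : Fin 3) (hij : i ≠ j) (t : F) (w : Fin 3 → F) :
    trE i j hij t * phiE w * (trE i j hij t)⁻¹ = phiE (Function.update w j (w j - t * w i)) := by
  rw [mul_inv_eq_iff_eq_mul]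
  apply gg_ext
  intro x
  simp only [ac_mul, ac_phiE, ac_trE]
  rcases fin3_pairs i j hij with ⟨rfl, rfl⟩ | ⟨rfl, rfl⟩ | ⟨rfl, rfl⟩ | ⟨rfl, rfl⟩ | ⟨rfl, rfl⟩ | ⟨rfl, rfl⟩ <;>
    (apply o_ext <;> simp [trF, phiF, zA, zB, Function.update] <;> first | ring1 | (ring_nf; simp))

theorem lift_psi_step {w : Fin 3 → F} (h : psiE w ∈ LiftS F) (i j : Fin 3) (hij : i ≠ j) (t : F) :
    psiE (Function.update w i (w i + t * w j)) ∈ LiftS F := by
  rw [← psi_conj i j hij]
  exact mul_mem (mul_mem (lift_tr _ _ _ _) h) (inv_mem (lift_tr _ _ _ _))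

theorem lift_phi_step {w : Fin 3 → F} (h : phiE w ∈ LiftS F) (i j : Fin 3) (hij : i ≠ j) (t : F) :
    phiE (Function.update w j (w j - t * w i)) ∈ LiftS F := by
  rw [← phi_conj i j hij]
  exact mul_mem (mul_mem (lift_tr _ _ _ _) h) (inv_mem (lift_tr _ _ _ _))

theorem vec3_eta (w : Fin 3 → F) : w = ![w 0, w 1, w 2] := by
  ext i
  fin_cases i <;> simp

/-- All short root elements of the first kind lift. -/
theorem lift_psi (w : Fin 3 → F) : psiE w ∈ LiftS F := by
  by_cases h0 : w 0 = 0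
  · by_cases h1 : w 1 = 0
    · rw [vec3_eta w, h0, h1]
      exact lift_psi2 _
    · have := lift_psi_step (lift_psi1 (w 1)) 2 1 (by decide) (w 2 / w 1)
      have e : Function.update ![0, w 1, 0] (2 : Fin 3) ((![0, w 1, 0] : Fin 3 → F) 2 + w 2 / w 1 * (![0, w 1, 0] : Fin 3 → F) 1) = w := by
        ext i
        fin_cases i
        · simp [h0]
        · simp
        · simp [Function.update]
          field_simp
      rwa [e] at this
  · have h2 := lift_psi_step (lift_psi0 (w 0)) 1 0 (by decide) (w 1 / w 0)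
    have e2 : Function.update ![w 0, 0, 0] (1 : Fin 3) ((![w 0, 0, 0] : Fin 3 → F) 1 + w 1 / w 0 * (![w 0, 0, 0] : Fin 3 → F) 0) =
        ![w 0, w 1, 0] := by
      ext i
      fin_cases i
      · simp
      · simp [Function.update]
        field_simp
      · simp
    rw [e2] at h2
    have h3 := lift_psi_step h2 2 0 (by decide) (w 2 / w 0)
    have e3 : Function.update ![w 0, w 1, 0] (2 : Fin 3) ((![w 0, w 1, 0] : Fin 3 → F) 2 + w 2 / w 0 * (![w 0, w 1, 0] : Fin 3 → F) 0) = w := by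
      ext i
      fin_cases i
      · simp
      · simp
      · simp [Function.update]
        field_simp
    rwa [e3] at h3

/-- All short root elements of the second kind lift. -/
theorem lift_phi (w : Fin 3 → F) : phiE w ∈ LiftS F := by
  by_cases h0 : w 0 = 0
  · by_cases h1 : w 1 = 0
    · rw [vec3_eta w, h0, h1]
      exact lift_phi2 _
    · have := lift_phi_step (lift_phi1 (w 1)) 1 2 (by decide) (- (w 2 / w 1))
      have e : Function.update ![0, w 1, 0] (2 : Fin 3) ((![0, w 1, 0] : Fin 3 → F) 2 - (- (w 2 / w 1)) * (![0, w 1, 0] : Fin 3 → F) 1) = w := by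
        ext i
        fin_cases i
        · simp [h0]
        · simp
        · simp [Function.update]
          field_simp
      rwa [e] at this
  · have h2 := lift_phi_step (lift_phi0 (w 0)) 0 1 (by decide) (- (w 1 / w 0))
    have e2 : Function.update ![w 0, 0, 0] (1 : Fin 3) ((![w 0, 0, 0] : Fin 3 → F) 1 - (- (w 1 / w 0)) * (![w 0, 0, 0] : Fin 3 → F) 0) =
        ![w 0, w 1, 0] := by
      ext i
      fin_cases i
      · simp
      · simp [Function.update]
        field_simp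
      · simp
    rw [e2] at h2
    have h3 := lift_phi_step h2 0 2 (by decide) (- (w 2 / w 0))
    have e3 : Function.update ![w 0, w 1, 0] (2 : Fin 3) ((![w 0, w 1, 0] : Fin 3 → F) 2 - (- (w 2 / w 0)) * (![w 0, w 1, 0] : Fin 3 → F) 0) = w := by
      ext i
      fin_cases i
      · simp
      · simp
      · simp [Function.update]
        field_simp
    rwa [e3] at h3

/-- An element fixing the first idempotent comes from a block. -/
theorem lift_of_fix {y : GG F} (h : ac y e0 = e0) : y ∈ LiftS F := by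
  obtain ⟨A, hdet, -, hact⟩ := stab_e0 y.2 h
  have e : y = bkE ⟨A, hdet⟩ := by
    apply gg_ext
    intro x
    exact (hact x).trans (ac_bkE ⟨A, hdet⟩ x).symm
  rw [e]
  exact lift_bk _

/-- The swap lifts. -/
theorem lift_sw : swE ∈ LiftS F := by
  have h1 : ac (swE * (psiE (![1, 0, 0] : Fin 3 → F) * phiE ![-1, 0, 0] * psiE ![1, 0, 0])) e0 = e0 := by
    simp only [ac_mul, ac_psiE, ac_phiE, ac_swE]
    apply o_ext <;> simp [e0, psiF, phiF, swF]
  have h2 := lift_of_fix h1
  have h3 : psiE (![1, 0, 0] : Fin 3 → F) * phiE ![-1, 0, 0] * psiE ![1, 0, 0] ∈ LiftS F :=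
    mul_mem (mul_mem (lift_psi _) (lift_phi _)) (lift_psi _)
  have := mul_mem h2 (inv_mem h3)
  rwa [mul_inv_cancel_right] at this

/-- Idempotents can be moved by lifted elements. -/
theorem exists_move_idem' {e : O F} (hT : T8 e = 1) (hN : N8 e = 0) : ∃ h ∈ LiftS F, ac h e = e0 := by
  classical
  have hT' : e 7 = 1 - e 0 := by
    simp only [T8] at hT
    linear_combination hT
  have hN' : e 0 * e 7 = e 1 * e 4 + e 2 * e 5 + e 3 * e 6 := by
    simp only [N8] at hN
    linear_combination hN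
  obtain ⟨κ, hκ⟩ : ∃ κ : F, (1 + e 0 * κ) * (1 - e 7 * κ) = 0 := by
    by_cases h0 : e 0 = 0
    · refine ⟨1, ?_⟩
      rw [hT', h0]
      ring
    · refine ⟨-(e 0)⁻¹, ?_⟩
      field_simp
      ring
  let w : Fin 3 → F := ![κ * e 1, κ * e 2, κ * e 3]
  set e' : O F := psiF w e with he'
  have h1 : e' 1 = 0 ∧ e' 2 = 0 ∧ e' 3 = 0 := by
    have key : ∀ a : F, a + (e 0 - e 7) * (κ * a) - (e 4 * (κ * e 1) + e 5 * (κ * e 2) + e 6 * (κ * e 3)) * (κ * a) = 0 := by
      intro a
      linear_combination a * hκ + κ ^ 2 * a * (hN')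
    refine ⟨?_, ?_, ?_⟩
    · simp only [he', psiF, w]
      simpa using key (e 1)
    · simp only [he', psiF, w]
      simpa using key (e 2)
    · simp only [he', psiF, w]
      simpa using key (e 3)
  have hT1 : T8 e' = 1 := by rw [he', T8_psi, hT]
  have hN1 : N8 e' = 0 := by rw [he', N8_psi, hN]
  have h2 : e' 0 * e' 7 = 0 := by
    simp only [N8, h1.1, h1.2.1, h1.2.2, zero_mul, add_zero, sub_zero] at hN1
    exact hN1
  have hT2 : e' 0 + e' 7 = 1 := hT1
  let z : Fin 3 → F := ![e' 4, e' 5, e' 6]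
  rcases mul_eq_zero.mp h2 with h3 | h3
  · -- the other idempotent
    have h7 : e' 7 = 1 := by rw [h3, zero_add] at hT2; exact hT2
    refine ⟨swE * phiE (-z) * psiE w, mul_mem (mul_mem lift_sw (lift_phi _)) (lift_psi _), ?_⟩
    rw [ac_mul, ac_mul, ac_psiE, ac_phiE, ac_swE, ← he']
    funext i
    fin_cases i <;> simp [swF, phiF, e0, h1.1, h1.2.1, h1.2.2, h3, h7, z] <;> ring
  · have h7 : e' 0 = 1 := by rw [h3, add_zero] at hT2; exact hT2
    refine ⟨phiE z * psiE w, mul_mem (lift_phi _) (lift_psi _), ?_⟩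
    rw [ac_mul, ac_psiE, ac_phiE, ← he']
    funext i
    fin_cases i <;> simp [phiF, e0, h1.1, h1.2.1, h1.2.2, h3, h7, z] <;> ring

/-- Every automorphism lifts. -/
theorem lift_all (y : GG F) : y ∈ LiftS F := by
  have hT : T8 (ac y e0) = 1 := by
    rw [ac_T8]
    simp [T8, e0]
  have hN : N8 (ac y e0) = 0 := by
    rw [ac_N8]
    simp [N8, e0]
  obtain ⟨h, hh, he⟩ := exists_move_idem' hT hN
  have h1 : h * y ∈ LiftS F := lift_of_fix (by rw [ac_mul, he])
  have := mul_mem (inv_mem hh) h1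
  rwa [inv_mul_cancel_left] at this

/-- The lift in the Chevalley group is unique. -/
theorem rel_unique {g g' : GL chevG2.Idx F} {y : GL (Fin 8) F}
    (h : Rel (D := chevG2) (Pm (F := F)) (g : Matrix chevG2.Idx chevG2.Idx F) (y : Matrix (Fin 8) (Fin 8) F))
    (h' : Rel (D := chevG2) (Pm (F := F)) (g' : Matrix chevG2.Idx chevG2.Idx F) (y : Matrix (Fin 8) (Fin 8) F)) :
    g = g' := by
  have h1 : Rel (D := chevG2) (Pm (F := F)) ((g'⁻¹ : GL chevG2.Idx F) : Matrix chevG2.Idx chevG2.Idx F)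
      ((y⁻¹ : GL (Fin 8) F) : Matrix (Fin 8) (Fin 8) F) :=
    h'.inv (by rw [← Units.val_mul, mul_inv_cancel, Units.val_one])
      (by rw [← Units.val_mul, inv_mul_cancel, Units.val_one])
      (by rw [← Units.val_mul, mul_inv_cancel, Units.val_one])
  have h2 := h1.mul h
  rw [← Units.val_mul, ← Units.val_mul, inv_mul_cancel, Units.val_one] at h2
  have h3 := eq_one_of_rel h2
  have h4 : g'⁻¹ * g = 1 := Units.ext h3
  rw [inv_mul_eq_one] at h4
  exact h4.symm

/-- The homomorphism from the automorphism group of the split octonions to the Chevalley group of type `G₂`. -/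
noncomputable def liftHom (F : Type*) [Field F] : GG F →* ↥(chevG2.group F) :=
  MonoidHom.mk' (fun y => ⟨(lift_all y).choose, (lift_all y).choose_spec.1⟩) (by
    intro a b
    apply Subtype.ext
    apply rel_unique (y := ((a * b : GG F) : GL (Fin 8) F))
    · exact (lift_all (a * b)).choose_spec.2
    · exact (lift_all a).choose_spec.2.mul (lift_all b).choose_spec.2)

theorem liftHom_rel (y : GG F) : Rel (D := chevG2) (Pm (F := F))
    (((liftHom F y : ↥(chevG2.group F)) : GL chevG2.Idx F) : Matrix chevG2.Idx chevG2.Idx F)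
    ((y : GL (Fin 8) F) : Matrix (Fin 8) (Fin 8) F) := (lift_all y).choose_spec.2

theorem liftHom_surjective (p : ℕ) [Fact p.Prime] [CharP F p] : Function.Surjective (liftHom F) := by
  rintro ⟨g, hg⟩
  obtain ⟨y, hy, -, hr⟩ := exists_lift (p := p) hg
  refine ⟨⟨y, hy⟩, ?_⟩
  apply Subtype.ext
  exact rel_unique (liftHom_rel ⟨y, hy⟩) hr

end Cfsg.Agent.Lib.OreG2
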